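import Mathlib
import Cfsg.Agent.S3056
import Cfsg.Agent.Lib.Helper21.CoCyclic
import Cfsg.Agent.Lib.Helper14.SylowAux
import Cfsg.Agent.Lib.Helper1.ThompsonAux
import Cfsg.Agent.Lib.Helper1.AGFam
import Cfsg.Prelude.Def_SylowChains

set_option autoImplicit false

/-!
Chain-connectedness of Sylow subgroups: isomorphism invariance and the case of two normal
subgroups of order divisible by `p` meeting in a `p'`-group.
-/

namespace Cfsg.Agent.Lib.Helper1.SCC

open Cfsg Cfsg.Agent.S3056 Cfsg.Agent.Lib.Helper19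
open scoped Pointwise

universe u

theorem conn_of_scc {G : Type*} [Group G] {p : ℕ} (h : IsSylowChainConnected p G)
    (S T : Sylow p G) : conn S T := by
  obtain ⟨n, c, h0, hl, -, hc⟩ := h S T
  have key : ∀ i : Fin (n + 1), conn (c 0) (c i) := by
    intro i
    induction i using Fin.induction with
    | zero => exact Relation.ReflTransGen.refl
    | succ j ih => exact Relation.ReflTransGen.tail ih (hc j)
  have := key (Fin.last n)
  rwa [h0, hl] at this

theorem scc_of_conn {G : Type*} [Group G] {p : ℕ} (h : ∀ S T : Sylow p G, conn S T) :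
    IsSylowChainConnected p G := by
  intro S T
  by_cases e : S = T
  · subst e
    exact ⟨0, fun _ => S, rfl, rfl, fun _ => inf_le_left, fun i => i.elim0⟩
  by_cases hinf : (S : Subgroup G) ⊓ (T : Subgroup G) = ⊥
  · obtain ⟨n, c, h0, hl, hc⟩ := chain_of_conn (h S T)
    exact ⟨n, c, h0, hl, fun i => by rw [hinf]; exact bot_le, hc⟩
  · refine ⟨1, Fin.cons S (fun _ => T), rfl, rfl, ?_, ?_⟩
    · intro j
      refine Fin.cases ?_ (fun k => ?_) j
      · rw [Fin.cons_zero]; exact inf_le_left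
      · rw [Fin.cons_succ]; exact inf_le_right
    · intro i
      have hi0 : i = 0 := Subsingleton.elim _ _
      subst hi0
      rw [Fin.castSucc_zero, Fin.cons_zero, Fin.cons_succ]
      exact ⟨e, hinf⟩

/-- Transport of a Sylow subgroup along an isomorphism. -/
noncomputable def sylMap {A B : Type*} [Group A] [Group B] {p : ℕ} (e : A ≃* B)
    (Q : Sylow p A) : Sylow p B :=
  Q.comapOfInjective e.symm.toMonoidHom
    (show Function.Injective e.symm.toMonoidHom from e.symm.injective)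
    (show (Q : Subgroup A) ≤ e.symm.toMonoidHom.range from fun x _ => ⟨e x, by simp⟩)

theorem mem_sylMap {A B : Type*} [Group A] [Group B] {p : ℕ} (e : A ≃* B) (Q : Sylow p A)
    (x : B) : x ∈ (sylMap e Q : Subgroup B) ↔ e.symm x ∈ (Q : Subgroup A) := by
  change x ∈ Subgroup.comap e.symm.toMonoidHom (Q : Subgroup A) ↔ _
  exact Subgroup.mem_comap

theorem sylMap_symm {A B : Type*} [Group A] [Group B] {p : ℕ} (e : A ≃* B) (Q : Sylow p B) :
    sylMap e (sylMap e.symm Q) = Q := by
  apply Sylow.ext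
  ext x
  rw [mem_sylMap, mem_sylMap]
  simp

theorem adj_sylMap {A B : Type*} [Group A] [Group B] {p : ℕ} (e : A ≃* B) {Q₁ Q₂ : Sylow p A}
    (h : adj Q₁ Q₂) : adj (sylMap e Q₁) (sylMap e Q₂) := by
  refine ⟨fun heq => h.1 ?_, ?_⟩
  · apply Sylow.ext
    ext x
    have h1 := mem_sylMap e Q₁ (e x)
    have h2 := mem_sylMap e Q₂ (e x)
    rw [heq] at h1
    simp only [MulEquiv.symm_apply_apply] at h1 h2
    exact h1.symm.trans h2
  · obtain ⟨x, hx1⟩ := Subgroup.ne_bot_iff_exists_ne_one.mp h.2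
    intro hbot
    have hmem : e (x : A) ∈ (sylMap e Q₁ : Subgroup B) ⊓ (sylMap e Q₂ : Subgroup B) := by
      refine Subgroup.mem_inf.mpr ⟨?_, ?_⟩
      · rw [mem_sylMap]; simpa using (Subgroup.mem_inf.mp x.2).1
      · rw [mem_sylMap]; simpa using (Subgroup.mem_inf.mp x.2).2
    rw [hbot, Subgroup.mem_bot] at hmem
    apply hx1
    apply Subtype.ext
    simpa using hmem

theorem conn_sylMap {A B : Type*} [Group A] [Group B] {p : ℕ} (e : A ≃* B) {Q₁ Q₂ : Sylow p A}
    (h : conn Q₁ Q₂) : conn (sylMap e Q₁) (sylMap e Q₂) := by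
  induction h with
  | refl => exact Relation.ReflTransGen.refl
  | tail _ hbc ih => exact Relation.ReflTransGen.tail ih (adj_sylMap e hbc)

theorem scc_of_equiv {A B : Type*} [Group A] [Group B] {p : ℕ} (e : A ≃* B)
    (h : IsSylowChainConnected p A) : IsSylowChainConnected p B := by
  apply scc_of_conn
  intro S T
  have h2 := conn_sylMap e (conn_of_scc h (sylMap e.symm S) (sylMap e.symm T))
  rwa [sylMap_symm, sylMap_symm] at h2

/-- Two normal subgroups of order divisible by `p` meeting in a `p'`-group force the Sylow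
`p`-subgroups to be chain-connected. -/
theorem scc_of_two_normal {Γ : Type u} [Group Γ] [Finite Γ] {p : ℕ} [hp : Fact p.Prime]
    (Y₁ Y₂ : Subgroup Γ) [hY₁ : Y₁.Normal] [hY₂ : Y₂.Normal] (h1 : p ∣ Nat.card Y₁)
    (h2 : p ∣ Nat.card Y₂) (h12 : ¬ p ∣ Nat.card ↥(Y₁ ⊓ Y₂)) : IsSylowChainConnected p Γ := by
  classical
  have hpp : p.Prime := hp.out
  obtain ⟨S⟩ : Nonempty (Sylow p Γ) := inferInstance
  have hSp : IsPGroup p (S : Subgroup Γ) := S.isPGroup'
  obtain ⟨D, hD⟩ : ∃ D : Subgroup Γ, D = Y₁ ⊓ Y₂ := ⟨_, rfl⟩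
  have hDn : D.Normal := by rw [hD]; infer_instance
  have hDcop : (Nat.card D).Coprime p := by
    rw [hD]; exact ((Nat.Prime.coprime_iff_not_dvd hpp).mpr h12).symm
  have hSD : ∀ w : Γ, w ∈ (S : Subgroup Γ) → w ∈ D → w = 1 := by
    intro w hwS hwD
    apply Helper1.eq_one_of_pgroup_of_coprime hSp hwS
    have : orderOf w ∣ Nat.card D := by
      have := orderOf_dvd_natCard (⟨w, hwD⟩ : ↥D)
      rwa [Subgroup.orderOf_mk] at this
    exact Nat.Coprime.coprime_dvd_left this hDcop
  let C : Subgroup Γ :=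
    { carrier := {g | conn (g • S) S}
      one_mem' := by
        show conn ((1 : Γ) • S) S
        rw [one_smul]; exact Relation.ReflTransGen.refl
      mul_mem' := by
        intro a b ha hb
        show conn ((a * b) • S) S
        rw [mul_smul]
        exact Relation.ReflTransGen.trans (conn_smul a hb) ha
      inv_mem' := by
        intro a ha
        show conn (a⁻¹ • S) S
        have := conn_smul a⁻¹ ha
        rw [inv_smul_smul] at this
        exact conn_symm this }
  have hmemC : ∀ g : Γ, g ∈ C ↔ conn (g • S) S := fun g => Iff.rfl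
  have hT : ∀ T : Subgroup Γ, T ≠ ⊥ → T ≤ (S : Subgroup Γ) →
      Subgroup.normalizer (T : Set Γ) ≤ C := by
    intro T hT1 hTS n hn
    rw [hmemC]
    apply conn_of_inf_ne_bot
    intro hbot
    apply hT1
    rw [eq_bot_iff]
    intro t ht
    rw [← hbot]
    refine Subgroup.mem_inf.mpr ⟨?_, hTS ht⟩
    rw [mem_smul_sylow_iff]
    apply hTS
    have := (Subgroup.mem_normalizer_iff.mp (inv_mem hn) t).mp ht
    rwa [inv_inv] at this
  have key : ∀ Y : Subgroup Γ, Y.Normal → p ∣ Nat.card Y →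
      ∃ a : Γ, a ∈ (S : Subgroup Γ) ∧ a ∈ Y ∧ orderOf a = p := by
    intro Y hYn hdvd
    obtain ⟨a₀, ha₀⟩ := exists_prime_orderOf_dvd_card' p hdvd
    have hQ : IsPGroup p (Subgroup.zpowers (a₀ : Γ)) := by
      apply IsPGroup.of_card (n := 1)
      rw [Nat.card_zpowers, Subgroup.orderOf_coe, ha₀, pow_one]
    obtain ⟨g, -, hg⟩ := Cfsg.Agent.Lib.Helper14.Sylow.exists_conj_mem_of_le S
      (le_top : (S : Subgroup Γ) ≤ ⊤) hQ le_top
    refine ⟨g * (a₀ : Γ) * g⁻¹, hg _ (Subgroup.mem_zpowers _), hYn.conj_mem _ a₀.2 g, ?_⟩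
    have e : g * (a₀ : Γ) * g⁻¹ = MulAut.conj g (a₀ : Γ) := by rw [MulAut.conj_apply]
    rw [e, MulEquiv.orderOf_eq, Subgroup.orderOf_coe, ha₀]
  obtain ⟨a, haS, haY, hao⟩ := key Y₁ hY₁ h1
  obtain ⟨b, hbS, hbY, hbo⟩ := key Y₂ hY₂ h2
  have ha1 : a ≠ 1 := by
    intro h; rw [h, orderOf_one] at hao; exact hpp.one_lt.ne hao
  have hb1 : b ≠ 1 := by
    intro h; rw [h, orderOf_one] at hbo; exact hpp.one_lt.ne hbo
  have hab : a * b = b * a := by
    have hw : a * b * a⁻¹ * b⁻¹ = 1 := by
      apply hSD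
      · exact mul_mem (mul_mem (mul_mem haS hbS) (inv_mem haS)) (inv_mem hbS)
      · rw [hD]
        refine Subgroup.mem_inf.mpr ⟨?_, ?_⟩
        · have : a * b * a⁻¹ * b⁻¹ = a * (b * a⁻¹ * b⁻¹) := by group
          rw [this]; exact mul_mem haY (hY₁.conj_mem _ (inv_mem haY) b)
        · exact mul_mem (hY₂.conj_mem _ hbY a) (inv_mem hbY)
    calc a * b = (a * b * a⁻¹ * b⁻¹) * (b * a) := by group
      _ = b * a := by rw [hw, one_mul]
  have hS1 : (S : Subgroup Γ) ≠ ⊥ := by
    intro h; rw [h, Subgroup.mem_bot] at haS; exact ha1 haS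
  have hSC : (S : Subgroup Γ) ≤ C := Subgroup.le_normalizer.trans (hT _ hS1 le_rfl)
  have hES : Subgroup.closure ({a, b} : Set Γ) ≤ (S : Subgroup Γ) := by
    rw [Subgroup.closure_le]
    intro x hx
    rcases hx with hx | hx
    · rw [hx]; exact haS
    · rw [Set.mem_singleton_iff.mp hx]; exact hbS
  have hEc : ∀ x ∈ Subgroup.closure ({a, b} : Set Γ), ∀ y ∈ Subgroup.closure ({a, b} : Set Γ),
      x * y = y * x := by
    intro x hx y hy
    have hs : ({a, b} : Set Γ) ⊆ Subgroup.centralizer ({a, b} : Set Γ) := by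
      intro z hz
      rw [SetLike.mem_coe, Subgroup.mem_centralizer_iff]
      intro w hw
      rcases hz with hz | hz
      · rcases hw with hw | hw
        · rw [hz, hw]
        · rw [hz, Set.mem_singleton_iff.mp hw]; exact hab.symm
      · rcases hw with hw | hw
        · rw [Set.mem_singleton_iff.mp hz, hw]; exact hab
        · rw [Set.mem_singleton_iff.mp hz, Set.mem_singleton_iff.mp hw]
    have hy' : y ∈ Subgroup.centralizer ({a, b} : Set Γ) := (Subgroup.closure_le _).mpr hs hy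
    have hx' : x ∈ Subgroup.centralizer
        ((Subgroup.centralizer ({a, b} : Set Γ) : Subgroup Γ) : Set Γ) :=
      Subgroup.closure_le_centralizer_centralizer _ hx
    exact (Subgroup.mem_centralizer_iff.mp hx' y hy').symm
  have hEcomm : IsMulCommutative (Subgroup.closure ({a, b} : Set Γ)) :=
    ⟨⟨fun x y => Subtype.ext (hEc x.1 x.2 y.1 y.2)⟩⟩
  have hEp : IsPGroup p (Subgroup.closure ({a, b} : Set Γ)) := hSp.to_le hES
  have hEpow : ∀ e ∈ Subgroup.closure ({a, b} : Set Γ), e ^ p ∈ (⊥ : Subgroup Γ) := by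
    intro e he
    rw [Subgroup.mem_bot]
    induction he using Subgroup.closure_induction with
    | mem x hx =>
      rcases hx with hx | hx
      · rw [hx, ← hao]; exact pow_orderOf_eq_one _
      · rw [Set.mem_singleton_iff.mp hx, ← hbo]; exact pow_orderOf_eq_one _
    | one => exact one_pow _
    | mul x y hx hy ihx ihy =>
      have hc : Commute x y := hEc x hx y hy
      rw [hc.mul_pow, ihx, ihy, one_mul]
    | inv x hx ih => rw [inv_pow, ih, inv_one]
  have hcop : (Nat.card (Subgroup.closure ({a, b} : Set Γ))).Coprime (Nat.card D) := by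
    obtain ⟨k, hk⟩ := IsPGroup.iff_card.mp hEp
    rw [hk]; exact Nat.Coprime.pow_left k hDcop.symm
  have hlt : p < (⊥ : Subgroup Γ).relIndex (Subgroup.closure ({a, b} : Set Γ)) := by
    rw [Subgroup.relIndex_bot_left]
    by_contra hcon
    push Not at hcon
    have hle : Subgroup.zpowers a ≤ Subgroup.closure ({a, b} : Set Γ) :=
      Subgroup.zpowers_le.mpr (Subgroup.subset_closure (Set.mem_insert _ _))
    have hcard : Nat.card (Subgroup.zpowers a) = p := by rw [Nat.card_zpowers, hao]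
    have heq := Subgroup.eq_of_le_of_card_ge hle (by rw [hcard]; exact hcon)
    have hb : b ∈ Subgroup.zpowers a := by
      rw [heq]; exact Subgroup.subset_closure (Set.mem_insert_of_mem _ rfl)
    have hbY₁ : b ∈ Y₁ := (Subgroup.zpowers_le.mpr haY) hb
    exact hb1 (hSD b hbS (by rw [hD]; exact Subgroup.mem_inf.mpr ⟨hbY₁, hbY⟩))
  have hgen := Cfsg.Agent.Lib.Helper21.hyperplane_generation_rel p D ⊥
      (Subgroup.closure ({a, b} : Set Γ)) bot_le (hE := hEcomm)
      (by rw [Subgroup.normalizer_eq_top_iff.mpr hDn]; exact le_top) bot_le hEpow hcop hlt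
  have hDC : D ≤ C := by
    refine hgen.trans (iSup₂_le ?_)
    rintro B ⟨hB1, hB2⟩
    exact inf_le_right.trans ((Subgroup.centralizer_le_normalizer _).trans
      (hT B (bot_lt_iff_ne_bot.mp hB1) (hB2.trans hES)))
  have hY₁C : Y₁ ≤ C := by
    intro y hy
    obtain ⟨T, hTdef⟩ : ∃ T : Subgroup Γ, T = Subgroup.zpowers b := ⟨_, rfl⟩
    have hTS : T ≤ (S : Subgroup Γ) := by rw [hTdef]; exact Subgroup.zpowers_le.mpr hbS
    have hT1 : T ≠ ⊥ := by
      intro h
      have : b ∈ T := by rw [hTdef]; exact Subgroup.mem_zpowers b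
      rw [h, Subgroup.mem_bot] at this
      exact hb1 this
    have hTp : IsPGroup p T := hSp.to_le hTS
    have hTY : T ≤ Y₂ := by rw [hTdef]; exact Subgroup.zpowers_le.mpr hbY
    have hTD : T ⊓ D = ⊥ := by
      rw [eq_bot_iff]; intro w hw
      exact Subgroup.mem_bot.mpr
        (hSD w (hTS (Subgroup.mem_inf.mp hw).1) (Subgroup.mem_inf.mp hw).2)
    have hidx : ¬ p ∣ T.relIndex (T ⊔ D) := by
      rw [relIndex_sup_of_normal T D, ← Subgroup.inf_relIndex_right, hTD,
        Subgroup.relIndex_bot_left]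
      exact (Nat.Prime.coprime_iff_not_dvd hpp).mp hDcop.symm
    have hQp : IsPGroup p (T.map (MulAut.conj y).toMonoidHom) := hTp.map _
    have hQM : T.map (MulAut.conj y).toMonoidHom ≤ T ⊔ D := by
      rintro _ ⟨t, ht, rfl⟩
      have e : (MulAut.conj y).toMonoidHom t = t * (t⁻¹ * y * t * y⁻¹) := by
        simp only [MulEquiv.coe_toMonoidHom, MulAut.conj_apply]; group
      rw [e]
      refine mul_mem (Subgroup.mem_sup_left ht) (Subgroup.mem_sup_right ?_)
      rw [hD]
      refine Subgroup.mem_inf.mpr ⟨?_, ?_⟩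
      · have := hY₁.conj_mem y hy t⁻¹
        rw [inv_inv] at this
        exact mul_mem this (inv_mem hy)
      · have h1 := hY₂.conj_mem t (hTY ht) y
        have e2 : t⁻¹ * y * t * y⁻¹ = t⁻¹ * (y * t * y⁻¹) := by group
        rw [e2]; exact mul_mem (inv_mem (hTY ht)) h1
    obtain ⟨h, hh, hconj⟩ :=
      Cfsg.Agent.Lib.Helper14.exists_conj_mem_of_relIndex hTp hidx hQp hQM
    have hhy : h * y ∈ Subgroup.normalizer (T : Set Γ) := by
      apply Helper1.mem_normalizer_of_conj_mem
      intro t ht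
      have := hconj (y * t * y⁻¹) ⟨t, ht, by simp⟩
      have e : h * y * t * (h * y)⁻¹ = h * (y * t * y⁻¹) * h⁻¹ := by group
      rw [e]; exact this
    have hhC : h ∈ C := (sup_le (hTS.trans hSC) hDC) hh
    have : y = h⁻¹ * (h * y) := by group
    rw [this]
    exact mul_mem (inv_mem hhC) (hT T hT1 hTS hhy)
  have hall : ∀ g : Γ, g ∈ C := by
    intro g
    have hidx : ¬ p ∣ (S : Subgroup Γ).relIndex ⊤ := by
      rw [Subgroup.relIndex_top_right]; exact S.not_dvd_index
    obtain ⟨k, hk, hkg⟩ := Cfsg.Agent.Lib.Helper1.AG.exists_mul_mem_normalizer_inf_rel hSp hidx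
      (le_top : Y₁ ≤ ⊤) (by rw [Subgroup.normalizer_eq_top_iff.mpr hY₁]) (Subgroup.mem_top g)
    have hne : (S : Subgroup Γ) ⊓ Y₁ ≠ ⊥ := by
      intro h
      have : a ∈ (S : Subgroup Γ) ⊓ Y₁ := Subgroup.mem_inf.mpr ⟨haS, haY⟩
      rw [h, Subgroup.mem_bot] at this
      exact ha1 this
    have h3 := hT _ hne inf_le_left hkg
    have : g = k⁻¹ * (k * g) := by group
    rw [this]
    exact mul_mem (inv_mem (hY₁C hk)) h3
  apply scc_of_conn
  intro S' T'
  obtain ⟨g, hg⟩ := MulAction.exists_smul_eq Γ S S'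
  obtain ⟨g', hg'⟩ := MulAction.exists_smul_eq Γ S T'
  have c1 : conn S' S := by rw [← hg]; exact (hmemC g).mp (hall g)
  have c2 : conn T' S := by rw [← hg']; exact (hmemC g').mp (hall g')
  exact Relation.ReflTransGen.trans c1 (conn_symm c2)

end Cfsg.Agent.Lib.Helper1.SCC
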