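import Mathlib
import Cfsg.Agent.Lib.Helper1.SCC
import Cfsg.Agent.Lib.Helper1.AGFam
import Cfsg.Agent.Lib.Helper6.PSolv2
import Cfsg.Agent.Lib.Helper11.PCores
import Cfsg.Agent.Lib.Helper14.Residual
import Cfsg.Prelude.Def_SylowChains
import Cfsg.Prelude.Def_Transfer
import Cfsg.Prelude.Def_Local

set_option autoImplicit false

/-!
The refined conjugation family: admissible pairs `(H, X)`, their transport along isomorphisms,
and chains of admissible steps.
-/

namespace Cfsg.Agent.Lib.Helper1.AGS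

open Cfsg
open Cfsg.Agent.Lib Cfsg.Agent.Lib.Helper14 Cfsg.Agent.Lib.Helper1.AG Cfsg.Agent.Lib.Helper1.SCC

universe u

variable {G : Type u} [Group G]

/-- Candidates for the least normal subgroup above `H` with index divisible by `p`. -/
def Cand (p : ℕ) (H Y : Subgroup G) : Prop :=
  H ≤ Y ∧ Y ≤ Subgroup.normalizer (H : Set G) ∧
    Subgroup.normalizer (H : Set G) ≤ Subgroup.normalizer (Y : Set G) ∧ p ∣ H.relIndex Y

/-- Admissible pairs. -/
def Good (p : ℕ) (P H X : Subgroup G) : Prop :=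
  H ≤ P ∧
  ¬ p ∣ (P ⊓ Subgroup.normalizer (H : Set G)).relIndex (Subgroup.normalizer (H : Set G)) ∧
  P ⊓ Subgroup.centralizer (H : Set G) ≤ H ∧
  (pPrimePCore p ↥(Subgroup.normalizer (H : Set G))).map
      (Subgroup.normalizer (H : Set G)).subtype = H ⊔ Subgroup.centralizer (H : Set G) ∧
  ¬ IsSylowChainConnected p
      (↥(Subgroup.normalizer (H : Set G)) ⧸ H.subgroupOf (Subgroup.normalizer (H : Set G))) ∧
  Cand p H X ∧ ∀ Y : Subgroup G, Cand p H Y → X ≤ Y

/-! ### Transport along isomorphisms -/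

theorem normalizer_map_equiv {G' : Type u} [Group G'] (e : G ≃* G') (H : Subgroup G) :
    Subgroup.normalizer ((H.map e.toMonoidHom : Subgroup G') : Set G') =
      (Subgroup.normalizer (H : Set G)).map e.toMonoidHom :=
  (Subgroup.map_equiv_normalizer_eq H e).symm

theorem centralizer_map_equiv {G' : Type u} [Group G'] (e : G ≃* G') (H : Subgroup G) :
    Subgroup.centralizer ((H.map e.toMonoidHom : Subgroup G') : Set G') =
      (Subgroup.centralizer (H : Set G)).map e.toMonoidHom := by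
  ext x
  constructor
  · intro hx
    refine ⟨e.symm x, ?_, by simp⟩
    show e.symm x ∈ Subgroup.centralizer (H : Set G)
    rw [Subgroup.mem_centralizer_iff]
    intro h hh
    have h1 := Subgroup.mem_centralizer_iff.mp hx (e h) ⟨h, hh, rfl⟩
    apply e.injective
    rw [map_mul, map_mul, MulEquiv.apply_symm_apply]
    exact h1
  · rintro ⟨x₀, hx₀, rfl⟩
    rw [Subgroup.mem_centralizer_iff]
    rintro _ ⟨h, hh, rfl⟩
    have h1 := Subgroup.mem_centralizer_iff.mp hx₀ h hh
    show e h * e x₀ = e x₀ * e h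
    rw [← map_mul, ← map_mul, h1]

theorem cand_map {G' : Type u} [Group G'] {p : ℕ} (e : G ≃* G') {H Y : Subgroup G}
    (h : Cand p H Y) : Cand p (H.map e.toMonoidHom) (Y.map e.toMonoidHom) := by
  obtain ⟨h1, h2, h3, h4⟩ := h
  refine ⟨Subgroup.map_mono h1, ?_, ?_, ?_⟩
  · rw [normalizer_map_equiv]; exact Subgroup.map_mono h2
  · rw [normalizer_map_equiv, normalizer_map_equiv]; exact Subgroup.map_mono h3
  · rw [Subgroup.relIndex_map_map_of_injective H Y e.injective]; exact h4

theorem mem_pPrimePCore_equiv {A B : Type u} [Group A] [Group B] (p : ℕ) (f : A ≃* B) (x : A) :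
    f x ∈ pPrimePCore p B ↔ x ∈ pPrimePCore p A := by
  rw [mem_pPrimePCore_iff, mem_pPrimePCore_iff]
  have h := Helper6.pCore_comap_mulEquiv (p := p) (Helper11.quotCoreEquiv p f)
  rw [← h, Subgroup.mem_comap]
  rfl

theorem ppc_map {G' : Type u} [Group G'] (p : ℕ) (e : G ≃* G') (N : Subgroup G)
    (N' : Subgroup G') (hN' : N' = N.map e.toMonoidHom) :
    (pPrimePCore p ↥N').map N'.subtype =
      ((pPrimePCore p ↥N).map N.subtype).map e.toMonoidHom := by
  subst hN'
  have hinj : Function.Injective e.toMonoidHom := e.injective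
  obtain ⟨f, hf⟩ : ∃ f : ↥N ≃* ↥(N.map e.toMonoidHom),
      ∀ n : ↥N, ((f n : ↥(N.map e.toMonoidHom)) : G') = e (n : G) :=
    ⟨N.equivMapOfInjective e.toMonoidHom hinj,
      fun n => Subgroup.coe_equivMapOfInjective_apply _ _ _ _⟩
  ext x
  constructor
  · rintro ⟨x', hx', rfl⟩
    have h1 : f (f.symm x') ∈ pPrimePCore p ↥(N.map e.toMonoidHom) := by
      rw [MulEquiv.apply_symm_apply]; exact hx'
    have h2 := (mem_pPrimePCore_equiv p f (f.symm x')).mp h1
    refine ⟨(f.symm x' : G), ⟨f.symm x', h2, rfl⟩, ?_⟩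
    have := hf (f.symm x')
    rw [MulEquiv.apply_symm_apply] at this
    exact this.symm
  · rintro ⟨_, ⟨x₀, hx₀, rfl⟩, rfl⟩
    exact ⟨f x₀, (mem_pPrimePCore_equiv p f x₀).mpr hx₀, hf x₀⟩

theorem scc_transport {G' : Type u} [Group G'] (p : ℕ) (e : G ≃* G') (H N : Subgroup G)
    (H' N' : Subgroup G') [hn : (H.subgroupOf N).Normal] [hn' : (H'.subgroupOf N').Normal]
    (hN' : N' = N.map e.toMonoidHom) (hH' : H' = H.map e.toMonoidHom) :
    IsSylowChainConnected p (↥N' ⧸ H'.subgroupOf N') →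
      IsSylowChainConnected p (↥N ⧸ H.subgroupOf N) := by
  subst hN' hH'
  have hinj : Function.Injective e.toMonoidHom := e.injective
  have hmap : (H.subgroupOf N).map
      (N.equivMapOfInjective e.toMonoidHom hinj).toMonoidHom =
      (H.map e.toMonoidHom).subgroupOf (N.map e.toMonoidHom) := by
    ext x
    constructor
    · rintro ⟨n, hn, rfl⟩
      rw [Subgroup.mem_subgroupOf]
      exact ⟨(n : G), Subgroup.mem_subgroupOf.mp hn,
        (Subgroup.coe_equivMapOfInjective_apply _ _ _ _).symm⟩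
    · intro hx
      rw [Subgroup.mem_subgroupOf] at hx
      obtain ⟨h, hh, hhx⟩ := hx
      obtain ⟨n, hn, hnx⟩ := x.2
      have hhn : h = n := e.injective (hhx.trans hnx.symm)
      refine ⟨⟨n, hn⟩, Subgroup.mem_subgroupOf.mpr (hhn ▸ hh), ?_⟩
      apply Subtype.ext
      exact hnx
  exact scc_of_equiv (QuotientGroup.congr _ _
    (N.equivMapOfInjective e.toMonoidHom hinj) hmap).symm

theorem mem_residual_map {G' : Type u} [Group G'] (p : ℕ) (e : G ≃* G') (X : Subgroup G)
    {x : G} (hx : x ∈ (pResidual p ↥X).map X.subtype) :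
    e x ∈ (pResidual p ↥(X.map e.toMonoidHom)).map (X.map e.toMonoidHom).subtype := by
  obtain ⟨x', hx', rfl⟩ := hx
  have hinj : Function.Injective e.toMonoidHom := e.injective
  obtain ⟨f, hf⟩ : ∃ f : ↥X ≃* ↥(X.map e.toMonoidHom),
      ∀ n : ↥X, ((f n : ↥(X.map e.toMonoidHom)) : G') = e (n : G) :=
    ⟨X.equivMapOfInjective e.toMonoidHom hinj,
      fun n => Subgroup.coe_equivMapOfInjective_apply _ _ _ _⟩
  refine ⟨f x', ?_, hf x'⟩
  have hle : (pResidual p ↥X).map f.toMonoidHom ≤ pResidual p ↥(X.map e.toMonoidHom) := by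
    unfold pResidual
    rw [MonoidHom.map_closure, Subgroup.closure_le]
    rintro _ ⟨g, hg, rfl⟩
    apply Subgroup.subset_closure
    show Nat.Coprime (orderOf (f.toMonoidHom g)) p
    have : orderOf (f.toMonoidHom g) = orderOf g := MulEquiv.orderOf_eq f g
    rw [this]; exact hg
  exact hle ⟨x', hx', rfl⟩

theorem good_map {G' : Type u} [Group G'] {p : ℕ} (e : G ≃* G') {P H X : Subgroup G}
    (h : Good p P H X) :
    Good p (P.map e.toMonoidHom) (H.map e.toMonoidHom) (X.map e.toMonoidHom) := by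
  obtain ⟨h1, h2, h3, h4, h5, h6, h7⟩ := h
  refine ⟨Subgroup.map_mono h1, ?_, ?_, ?_, ?_, cand_map e h6, ?_⟩
  · rw [normalizer_map_equiv, ← Subgroup.map_inf _ _ _ e.injective,
      Subgroup.relIndex_map_map_of_injective _ _ e.injective]
    exact h2
  · rw [centralizer_map_equiv, ← Subgroup.map_inf _ _ _ e.injective]
    exact Subgroup.map_mono h3
  · rw [ppc_map p e (Subgroup.normalizer (H : Set G)) _ (normalizer_map_equiv e H), h4,
      Subgroup.map_sup, centralizer_map_equiv]
  · intro hc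
    exact h5 (scc_transport p e H (Subgroup.normalizer (H : Set G)) (H.map e.toMonoidHom)
      (Subgroup.normalizer ((H.map e.toMonoidHom : Subgroup G') : Set G'))
      (normalizer_map_equiv e H) rfl hc)
  · intro Y hY
    have hY' := cand_map e.symm hY
    rw [Helper11.map_map_symm_mulEquiv] at hY'
    have h8 := Subgroup.map_mono (f := e.toMonoidHom) (h7 _ hY')
    rwa [Helper11.map_symm_map_mulEquiv] at h8

/-! ### Steps and chains -/

/-- One admissible step. -/
def Step (p : ℕ) (P : Subgroup G) (B : Set G) (x : G) : Prop :=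
  ∃ H X : Subgroup G, Good p P H X ∧ x ∈ (pResidual p ↥X).map X.subtype ∧ B ⊆ (H : Set G)

theorem Step.mono {p : ℕ} {P : Subgroup G} {B B' : Set G} {x : G} (h : Step p P B x)
    (hB : B' ⊆ B) : Step p P B' x := by
  obtain ⟨H, X, h1, h2, h3⟩ := h
  exact ⟨H, X, h1, h2, hB.trans h3⟩

theorem residual_le (p : ℕ) (X : Subgroup G) : (pResidual p ↥X).map X.subtype ≤ X := by
  rintro _ ⟨x, -, rfl⟩
  exact x.2

theorem Step.inv {p : ℕ} {P : Subgroup G} {B : Set G} {x : G} (h : Step p P B x) :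
    Step p P (conjR x B) x⁻¹ := by
  obtain ⟨H, X, h1, h2, h3⟩ := h
  refine ⟨H, X, h1, inv_mem h2, ?_⟩
  exact conjR_subset_of_mem_normalizer (h1.2.2.2.2.2.1.2.1 (residual_le p X h2)) h3

theorem Step.conj {p : ℕ} {P : Subgroup G} {B : Set G} {x : G} (h : Step p P B x) {y : G}
    (hy : y ∈ Subgroup.normalizer (P : Set G)) : Step p P (conjR y⁻¹ B) (y * x * y⁻¹) := by
  obtain ⟨H, X, h1, h2, h3⟩ := h
  have hg := good_map (MulAut.conj y) h1
  rw [map_conj_eq_self_of_mem_normalizer hy] at hg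
  refine ⟨_, _, hg, ?_, ?_⟩
  · have := mem_residual_map p (MulAut.conj y) X h2
    rwa [MulAut.conj_apply] at this
  · rintro _ ⟨b, hb, rfl⟩
    exact ⟨b, h3 hb, by simp⟩

/-- Chains of admissible steps carrying a set along. -/
inductive SC (p : ℕ) (P : Subgroup G) : Set G → G → Prop
  | nil (A : Set G) : SC p P A 1
  | cons (A : Set G) (x g : G) : Step p P A x → SC p P (conjR x A) g → SC p P A (x * g)

theorem SC.mono {p : ℕ} {P : Subgroup G} {A : Set G} {g : G} (h : SC p P A g) :
    ∀ {A' : Set G}, A' ⊆ A → SC p P A' g := by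
  induction h with
  | nil A => intro A' _; exact SC.nil A'
  | cons A x g hx _ ih =>
    intro A' hA'
    exact SC.cons A' x g (hx.mono hA') (ih (conjR_mono hA'))

theorem SC.single {p : ℕ} {P : Subgroup G} {A : Set G} {x : G} (h : Step p P A x) :
    SC p P A x := by
  have := SC.cons A x 1 h (SC.nil _)
  rwa [mul_one] at this

theorem SC.trans {p : ℕ} {P : Subgroup G} {A : Set G} {g : G} (h : SC p P A g) :
    ∀ {k : G}, SC p P (conjR g A) k → SC p P A (g * k) := by
  induction h with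
  | nil A =>
    intro k hk
    rw [conjR_one] at hk
    rwa [one_mul]
  | cons A x g hx _ ih =>
    intro k hk
    rw [conjR_mul] at hk
    rw [mul_assoc]
    exact SC.cons A x (g * k) hx (ih hk)

theorem SC.symm {p : ℕ} {P : Subgroup G} {A : Set G} {g : G} (h : SC p P A g) :
    SC p P (conjR g A) g⁻¹ := by
  induction h with
  | nil A => rw [inv_one]; exact SC.nil _
  | cons A x g hx _ ih =>
    rw [mul_inv_rev, conjR_mul]
    apply ih.trans
    rw [conjR_inv_conjR]
    exact SC.single hx.inv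

theorem SC.conj {p : ℕ} {P : Subgroup G} {A : Set G} {g : G} (h : SC p P A g) {y : G}
    (hy : y ∈ Subgroup.normalizer (P : Set G)) : SC p P (conjR y⁻¹ A) (y * g * y⁻¹) := by
  induction h with
  | nil A =>
    have : y * 1 * y⁻¹ = 1 := by group
    rw [this]; exact SC.nil _
  | cons A x g hx _ ih =>
    have e : y * (x * g) * y⁻¹ = (y * x * y⁻¹) * (y * g * y⁻¹) := by group
    rw [e]
    refine SC.cons _ _ _ (hx.conj hy) ?_
    have e2 : conjR (y * x * y⁻¹) (conjR y⁻¹ A) = conjR y⁻¹ (conjR x A) := by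
      rw [← conjR_mul, ← conjR_mul]
      congr 1
      group
    rw [e2]
    exact ih

theorem SC.conj' {p : ℕ} {P : Subgroup G} {A : Set G} {g : G} (h : SC p P A g) {y : G}
    (hy : y ∈ Subgroup.normalizer (P : Set G)) : SC p P (conjR y A) (y⁻¹ * g * y) := by
  have := h.conj (inv_mem hy)
  rwa [inv_inv] at this

/-- A centralizing element, a chain and a normalizing element of `P`. -/
def SChain (p : ℕ) (P : Subgroup G) (A : Set G) (g : G) : Prop :=
  ∃ c ∈ Subgroup.centralizer A, ∃ k : G, SC p P A k ∧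
    ∃ y ∈ Subgroup.normalizer (P : Set G), g = c * k * y

theorem SChain.mono {p : ℕ} {P : Subgroup G} {A A' : Set G} {g : G} (h : SChain p P A g)
    (hA : A' ⊆ A) : SChain p P A' g := by
  obtain ⟨c, hc, k, hk, y, hy, rfl⟩ := h
  exact ⟨c, Subgroup.centralizer_le hA hc, k, hk.mono hA, y, hy, rfl⟩

theorem SChain.mul_left {p : ℕ} {P : Subgroup G} {A : Set G} {g z : G} (h : SChain p P A g)
    (hz : z ∈ Subgroup.centralizer A) : SChain p P A (z * g) := by
  obtain ⟨c, hc, k, hk, y, hy, rfl⟩ := h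
  exact ⟨z * c, mul_mem hz hc, k, hk, y, hy, by group⟩

theorem SChain.trans {p : ℕ} {P : Subgroup G} {A : Set G} {g h : G} (hg : SChain p P A g)
    (hh : SChain p P (conjR g A) h) : SChain p P A (g * h) := by
  obtain ⟨c, hc, k, hk, y, hy, rfl⟩ := hg
  obtain ⟨c', hc', k', hk', y', hy', rfl⟩ := hh
  have e : conjR (c * k * y) A = conjR (k * y) A := by
    rw [mul_assoc, conjR_mul, conjR_of_mem_centralizer hc]
  rw [e] at hc' hk'
  have h1 : SC p P (conjR k A) (y * k' * y⁻¹) := by
    have := hk'.conj hy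
    rwa [conjR_mul, conjR_inv_conjR] at this
  refine ⟨c * ((k * y) * c' * (k * y)⁻¹), mul_mem hc (conj_mem_centralizer_of_conjR hc'),
    k * (y * k' * y⁻¹), hk.trans h1, y * y', mul_mem hy hy', ?_⟩
  group

theorem SChain.symm {p : ℕ} {P : Subgroup G} {A : Set G} {g : G} (hg : SChain p P A g) :
    SChain p P (conjR g A) g⁻¹ := by
  obtain ⟨c, hc, k, hk, y, hy, rfl⟩ := hg
  have e : conjR (c * k * y) A = conjR (k * y) A := by
    rw [mul_assoc, conjR_mul, conjR_of_mem_centralizer hc]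
  rw [e]
  have h1 : SC p P (conjR (k * y) A) (y⁻¹ * k⁻¹ * y) := by
    rw [conjR_mul]
    exact hk.symm.conj' hy
  refine ⟨(k * y)⁻¹ * c⁻¹ * (k * y), ?_, y⁻¹ * k⁻¹ * y, h1, y⁻¹, inv_mem hy, by group⟩
  rw [Subgroup.mem_centralizer_iff]
  rintro _ ⟨a, ha, rfl⟩
  have h := Subgroup.mem_centralizer_iff.mp (inv_mem hc) a ha
  calc (k * y)⁻¹ * a * (k * y) * ((k * y)⁻¹ * c⁻¹ * (k * y))
      = (k * y)⁻¹ * (a * c⁻¹) * (k * y) := by group
    _ = (k * y)⁻¹ * (c⁻¹ * a) * (k * y) := by rw [h]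
    _ = (k * y)⁻¹ * c⁻¹ * (k * y) * ((k * y)⁻¹ * a * (k * y)) := by group

theorem SChain.of_normalizer {p : ℕ} {P : Subgroup G} {A : Set G} {y : G}
    (hy : y ∈ Subgroup.normalizer (P : Set G)) : SChain p P A y :=
  ⟨1, one_mem _, 1, SC.nil _, y, hy, by group⟩

theorem SChain.of_step {p : ℕ} {P : Subgroup G} {A : Set G} {x : G} (h : Step p P A x) :
    SChain p P A x :=
  ⟨1, one_mem _, x, SC.single h, 1, one_mem _, by group⟩

/-- Chain data indexed by `Fin n`. -/
theorem SC.toData {p : ℕ} {P : Subgroup G} {A : Set G} {k : G} (h : SC p P A k) :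
    ∃ (n : ℕ) (H X : Fin n → Subgroup G) (x : Fin n → G), (List.ofFn x).prod = k ∧
      ∀ i : Fin n, Good p P (H i) (X i) ∧ x i ∈ (pResidual p ↥(X i)).map (X i).subtype ∧
        conjR (((List.ofFn x).take i.val).prod) A ⊆ (H i : Set G) := by
  induction h with
  | nil A => exact ⟨0, Fin.elim0, Fin.elim0, Fin.elim0, by simp, fun i => i.elim0⟩
  | cons A x g hx _ ih =>
    obtain ⟨H₀, X₀, hgood, hx₀, hA⟩ := hx
    obtain ⟨n, H, X, xs, hprod, hall⟩ := ih
    refine ⟨n + 1, Fin.cons H₀ H, Fin.cons X₀ X, Fin.cons x xs, ?_, ?_⟩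
    · rw [List.ofFn_cons, List.prod_cons, hprod]
    · intro i
      refine Fin.cases ?_ (fun j => ?_) i
      · simp only [Fin.cons_zero, Fin.val_zero, List.take_zero, List.prod_nil]
        rw [conjR_one]
        exact ⟨hgood, hx₀, hA⟩
      · simp only [Fin.cons_succ, Fin.val_succ]
        rw [List.ofFn_cons, List.take_succ_cons, List.prod_cons, conjR_mul]
        exact hall j

end Cfsg.Agent.Lib.Helper1.AGS
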