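import Mathlib
set_option autoImplicit false

/-!
Counting lemmas for Camina pairs `(G, N)`: every `g ∉ N` is conjugate to `g * n` for all `n ∈ N`.
-/

namespace Cfsg.Agent.Lib.Helper1.Camina

theorem card_eq_sum_fibers {α β : Type*} [Finite α] [Fintype β] (f : α → β) :
    Nat.card α = ∑ b, Nat.card {a // f a = b} := by
  rw [Nat.card_congr (Equiv.sigmaFiberEquiv f).symm, Nat.card_sigma]

theorem card_of_fibers {α β : Type*} [Finite α] [Finite β] (f : α → β) (k : ℕ)
    (h : ∀ b, Nat.card {a // f a = b} = k) : Nat.card α = Nat.card β * k := by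
  classical
  have := Fintype.ofFinite β
  rw [card_eq_sum_fibers f]
  simp [h, Nat.card_eq_fintype_card]

section

variable {G : Type*} [Group G] (N : Subgroup G) [N.Normal] (u : G)

/-- the preimage of the centraliser of the image of `u` in `G ⧸ N`. -/
def Ct : Subgroup G :=
  (Subgroup.centralizer ({(QuotientGroup.mk u : G ⧸ N)} : Set (G ⧸ N))).comap (QuotientGroup.mk' N)

theorem mem_Ct {c : G} : c ∈ Ct N u ↔ u⁻¹ * (c * u * c⁻¹) ∈ N := by
  unfold Ct
  rw [Subgroup.mem_comap, Subgroup.mem_centralizer_iff]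
  constructor
  · intro h
    have h1 := h _ (Set.mem_singleton _)
    rw [QuotientGroup.mk'_apply] at h1
    have h2 : (QuotientGroup.mk u : G ⧸ N) = QuotientGroup.mk (c * u * c⁻¹) := by
      rw [QuotientGroup.mk_mul, QuotientGroup.mk_mul, QuotientGroup.mk_inv, ← h1]
      group
    exact QuotientGroup.eq.mp h2
  · intro h x hx
    rw [Set.mem_singleton_iff] at hx
    subst hx
    have h2 : (QuotientGroup.mk u : G ⧸ N) = QuotientGroup.mk (c * u * c⁻¹) :=
      QuotientGroup.eq.mpr h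
    rw [QuotientGroup.mk_mul, QuotientGroup.mk_mul, QuotientGroup.mk_inv] at h2
    rw [QuotientGroup.mk'_apply]
    calc (QuotientGroup.mk u : G ⧸ N) * QuotientGroup.mk c
        = ((QuotientGroup.mk c : G ⧸ N) * QuotientGroup.mk u * (QuotientGroup.mk c)⁻¹)
            * QuotientGroup.mk c := by rw [← h2]
      _ = QuotientGroup.mk c * QuotientGroup.mk u := by group

theorem N_le_Ct : N ≤ Ct N u := by
  intro n hn
  rw [mem_Ct]
  have h1 : u⁻¹ * n * u ∈ N := by
    have := Subgroup.Normal.conj_mem (inferInstance : N.Normal) n hn u⁻¹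
    simpa using this
  have h2 : u⁻¹ * (n * u * n⁻¹) = (u⁻¹ * n * u) * n⁻¹ := by group
  rw [h2]
  exact mul_mem h1 (inv_mem hn)

theorem mem_cent {c : G} : c ∈ Subgroup.centralizer ({u} : Set G) ↔ c * u * c⁻¹ = u := by
  rw [Subgroup.mem_centralizer_iff]
  constructor
  · intro h
    have h1 := h u (Set.mem_singleton _)
    rw [← h1]; group
  · intro h x hx
    rw [Set.mem_singleton_iff] at hx
    subst hx
    calc x * c = (c * x * c⁻¹) * c := by rw [h]
      _ = c * x := by group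

theorem C_le_Ct : Subgroup.centralizer ({u} : Set G) ≤ Ct N u := by
  intro c hc
  rw [mem_Ct, (mem_cent u).mp hc]
  simp

variable [Finite G]

theorem card_Ct (hcam : ∀ g : G, g ∉ N → ∀ n ∈ N, ∃ x : G, x * g * x⁻¹ = g * n) (hu : u ∉ N) :
    Nat.card (Ct N u) = Nat.card N * Nat.card (Subgroup.centralizer ({u} : Set G)) := by
  let f : Ct N u → N := fun c => ⟨u⁻¹ * (c.1 * u * c.1⁻¹), (mem_Ct N u).mp c.2⟩
  apply card_of_fibers f
  intro n
  obtain ⟨x, hx⟩ := hcam u hu n.1 n.2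
  have hxu : x⁻¹ * (u * n.1) * x = u := by rw [← hx]; group
  refine Nat.card_congr
    { toFun := fun c => ⟨x⁻¹ * c.1.1, ?_⟩
      invFun := fun y => ⟨⟨x * y.1, ?_⟩, ?_⟩
      left_inv := ?_
      right_inv := ?_ }
  · rw [mem_cent]
    have h1 : u⁻¹ * (c.1.1 * u * c.1.1⁻¹) = n.1 := congrArg Subtype.val c.2
    have h2 : c.1.1 * u * c.1.1⁻¹ = u * n.1 := by rw [← h1]; group
    calc x⁻¹ * c.1.1 * u * (x⁻¹ * c.1.1)⁻¹ = x⁻¹ * (c.1.1 * u * c.1.1⁻¹) * x := by group
      _ = u := by rw [h2, hxu]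
  · rw [mem_Ct]
    have h1 : x * y.1 * u * (x * y.1)⁻¹ = x * (y.1 * u * y.1⁻¹) * x⁻¹ := by group
    rw [h1, (mem_cent u).mp y.2, hx]
    simp
  · apply Subtype.ext
    show u⁻¹ * (x * y.1 * u * (x * y.1)⁻¹) = n.1
    have h1 : x * y.1 * u * (x * y.1)⁻¹ = x * (y.1 * u * y.1⁻¹) * x⁻¹ := by group
    rw [h1, (mem_cent u).mp y.2, hx]
    simp
  · intro c
    apply Subtype.ext; apply Subtype.ext
    simp
  · intro y
    apply Subtype.ext
    simp

theorem card_Ct' :
    Nat.card (Ct N u) = Nat.card N *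
      Nat.card (Subgroup.centralizer ({(QuotientGroup.mk u : G ⧸ N)} : Set (G ⧸ N))) := by
  have h1 : (Ct N u).index =
      (Subgroup.centralizer ({(QuotientGroup.mk u : G ⧸ N)} : Set (G ⧸ N))).index :=
    Subgroup.index_comap_of_surjective _ (QuotientGroup.mk'_surjective N)
  have h2 := Subgroup.card_mul_index (Ct N u)
  have h3 := Subgroup.card_mul_index
    (Subgroup.centralizer ({(QuotientGroup.mk u : G ⧸ N)} : Set (G ⧸ N)))
  have h4 := Subgroup.card_eq_card_quotient_mul_card_subgroup N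
  have h5 : (Ct N u).index ≠ 0 := Subgroup.index_ne_zero_of_finite
  rw [← h1] at h3
  have h6 : Nat.card (Ct N u) * (Ct N u).index =
      (Nat.card N * Nat.card
        (Subgroup.centralizer ({(QuotientGroup.mk u : G ⧸ N)} : Set (G ⧸ N)))) *
        (Ct N u).index := by
    rw [h2, h4, ← h3]; ring
  exact Nat.eq_of_mul_eq_mul_right (Nat.pos_of_ne_zero h5) h6

theorem cam_card_aux (hcam : ∀ g : G, g ∉ N → ∀ n ∈ N, ∃ x : G, x * g * x⁻¹ = g * n) (hu : u ∉ N) :
    Nat.card (Subgroup.centralizer ({u} : Set G)) =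
      Nat.card (Subgroup.centralizer ({(QuotientGroup.mk u : G ⧸ N)} : Set (G ⧸ N))) := by
  have h1 := card_Ct N u hcam hu
  have h2 := card_Ct' N u
  rw [h1] at h2
  exact Nat.eq_of_mul_eq_mul_left Nat.card_pos h2

theorem cam_supp_aux (hcam : ∀ g : G, g ∉ N → ∀ n ∈ N, ∃ x : G, x * g * x⁻¹ = g * n)
    (G1 : Subgroup G) (hsup : G1 ⊔ N = ⊤) (hu1 : u ∈ G1) (hu : u ∉ N) :
    Subgroup.centralizer ({u} : Set G) ≤ G1 ∧
      ∀ m ∈ N, m ∈ G1 → ∃ c ∈ G1, c * u * c⁻¹ = u * m := by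
  classical
  -- Step C : |N| * |C1| = |Ct| * |N1|
  have hC : Nat.card N * Nat.card (Ct N u ⊓ G1 : Subgroup G) =
      Nat.card (Ct N u) * Nat.card (N ⊓ G1 : Subgroup G) := by
    let h : N × (Ct N u ⊓ G1 : Subgroup G) → Ct N u :=
      fun p => ⟨p.1.1 * p.2.1, mul_mem (N_le_Ct N u p.1.2) (Subgroup.mem_inf.mp p.2.2).1⟩
    rw [← Nat.card_prod]
    apply card_of_fibers h
    intro t
    have ht : t.1 ∈ ((N ⊔ G1 : Subgroup G) : Set G) := by
      rw [sup_comm, hsup]; exact Set.mem_univ _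
    rw [Subgroup.normal_mul, Set.mem_mul] at ht
    obtain ⟨n0, hn0, g0, hg0, hng⟩ := ht
    have hn0' : n0 ∈ N := hn0
    have hg0' : g0 ∈ G1 := hg0
    have hg0Ct : g0 ∈ Ct N u := by
      have : g0 = n0⁻¹ * t.1 := by rw [← hng]; group
      rw [this]
      exact mul_mem (N_le_Ct N u (inv_mem hn0')) t.2
    refine Nat.card_congr
      { toFun := fun p => ⟨n0⁻¹ * p.1.1.1, ?_⟩
        invFun := fun m => ⟨(⟨n0 * m.1, ?_⟩, ⟨m.1⁻¹ * g0, ?_⟩), ?_⟩
        left_inv := ?_
        right_inv := ?_ }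
    · have hp : p.1.1.1 * p.1.2.1 = t.1 := congrArg Subtype.val p.2
      refine Subgroup.mem_inf.mpr ⟨mul_mem (inv_mem hn0') p.1.1.2, ?_⟩
      have : n0⁻¹ * p.1.1.1 = g0 * p.1.2.1⁻¹ := by
        have h1 : p.1.1.1 = t.1 * p.1.2.1⁻¹ := by rw [← hp]; group
        rw [h1, ← hng]; group
      rw [this]
      exact mul_mem hg0' (inv_mem (Subgroup.mem_inf.mp p.1.2.2).2)
    · exact mul_mem hn0' (Subgroup.mem_inf.mp m.2).1
    · exact Subgroup.mem_inf.mpr ⟨mul_mem (N_le_Ct N u (inv_mem (Subgroup.mem_inf.mp m.2).1)) hg0Ct,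
        mul_mem (inv_mem (Subgroup.mem_inf.mp m.2).2) hg0'⟩
    · apply Subtype.ext
      show n0 * m.1 * (m.1⁻¹ * g0) = t.1
      rw [← hng]; group
    · intro p
      have hp : p.1.1.1 * p.1.2.1 = t.1 := congrArg Subtype.val p.2
      apply Subtype.ext
      apply Prod.ext
      · apply Subtype.ext
        show n0 * (n0⁻¹ * p.1.1.1) = p.1.1.1
        group
      · apply Subtype.ext
        show (n0⁻¹ * p.1.1.1)⁻¹ * g0 = p.1.2.1
        have h1 : g0 = n0⁻¹ * (p.1.1.1 * p.1.2.1) := by rw [hp, ← hng]; group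
        rw [h1]; group
    · intro m
      apply Subtype.ext
      show n0⁻¹ * (n0 * m.1) = m.1
      group
  have hA := card_Ct N u hcam hu
  -- |C1| = |C| * |N1|
  have hC1 : Nat.card (Ct N u ⊓ G1 : Subgroup G) =
      Nat.card (Subgroup.centralizer ({u} : Set G)) * Nat.card (N ⊓ G1 : Subgroup G) := by
    rw [hA, mul_assoc] at hC
    exact Nat.eq_of_mul_eq_mul_left Nat.card_pos hC
  -- Step D
  let ψ : (Ct N u ⊓ G1 : Subgroup G) → (N ⊓ G1 : Subgroup G) :=
    fun c => ⟨u⁻¹ * (c.1 * u * c.1⁻¹), Subgroup.mem_inf.mpr ⟨(mem_Ct N u).mp (Subgroup.mem_inf.mp c.2).1,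
      mul_mem (inv_mem hu1) (mul_mem (mul_mem (Subgroup.mem_inf.mp c.2).2 hu1)
        (inv_mem (Subgroup.mem_inf.mp c.2).2))⟩⟩
  have hle : ∀ m : (N ⊓ G1 : Subgroup G), Nat.card {c // ψ c = m} ≤
      Nat.card (Subgroup.centralizer ({u} : Set G) ⊓ G1 : Subgroup G) := by
    intro m
    by_cases hne : Nonempty {c // ψ c = m}
    · obtain ⟨c0⟩ := hne
      have hc0 : u⁻¹ * (c0.1.1 * u * c0.1.1⁻¹) = m.1 := congrArg Subtype.val c0.2
      apply Nat.card_le_card_of_injective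
        (fun c : {c // ψ c = m} =>
          (⟨c0.1.1⁻¹ * c.1.1, by
            have hc : u⁻¹ * (c.1.1 * u * c.1.1⁻¹) = m.1 := congrArg Subtype.val c.2
            refine Subgroup.mem_inf.mpr ⟨?_, mul_mem (inv_mem (Subgroup.mem_inf.mp c0.1.2).2)
              (Subgroup.mem_inf.mp c.1.2).2⟩
            rw [mem_cent]
            have h1 : c.1.1 * u * c.1.1⁻¹ = c0.1.1 * u * c0.1.1⁻¹ := by
              have e1 : c.1.1 * u * c.1.1⁻¹ = u * m.1 := by rw [← hc]; group
              have e2 : c0.1.1 * u * c0.1.1⁻¹ = u * m.1 := by rw [← hc0]; group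
              rw [e1, e2]
            calc c0.1.1⁻¹ * c.1.1 * u * (c0.1.1⁻¹ * c.1.1)⁻¹
                = c0.1.1⁻¹ * (c.1.1 * u * c.1.1⁻¹) * c0.1.1 := by group
              _ = u := by rw [h1]; group⟩ :
            (Subgroup.centralizer ({u} : Set G) ⊓ G1 : Subgroup G)))
      intro c c' hcc
      have h1 : c0.1.1⁻¹ * c.1.1 = c0.1.1⁻¹ * c'.1.1 := congrArg Subtype.val hcc
      apply Subtype.ext; apply Subtype.ext
      exact mul_left_cancel h1
    · rw [not_nonempty_iff] at hne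
      rw [Nat.card_of_isEmpty]
      exact Nat.zero_le _
  have := Fintype.ofFinite (N ⊓ G1 : Subgroup G)
  have hsum := card_eq_sum_fibers ψ
  rw [hC1] at hsum
  have hk2 : Nat.card (Subgroup.centralizer ({u} : Set G) ⊓ G1 : Subgroup G) ≤
      Nat.card (Subgroup.centralizer ({u} : Set G)) :=
    Subgroup.card_le_of_le inf_le_left
  have hN1 : Nat.card (N ⊓ G1 : Subgroup G) = Fintype.card (N ⊓ G1 : Subgroup G) :=
    Nat.card_eq_fintype_card
  have hN1pos : 0 < Fintype.card (N ⊓ G1 : Subgroup G) := Fintype.card_pos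
  have hsumle : ∑ m : (N ⊓ G1 : Subgroup G), Nat.card {c // ψ c = m} ≤
      Fintype.card (N ⊓ G1 : Subgroup G) *
        Nat.card (Subgroup.centralizer ({u} : Set G) ⊓ G1 : Subgroup G) := by
    calc ∑ m : (N ⊓ G1 : Subgroup G), Nat.card {c // ψ c = m}
        ≤ ∑ _m : (N ⊓ G1 : Subgroup G),
            Nat.card (Subgroup.centralizer ({u} : Set G) ⊓ G1 : Subgroup G) :=
          Finset.sum_le_sum (fun m _ => hle m)
      _ = _ := by simp
  have hkeq : Nat.card (Subgroup.centralizer ({u} : Set G) ⊓ G1 : Subgroup G) =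
      Nat.card (Subgroup.centralizer ({u} : Set G)) := by
    apply le_antisymm hk2
    rw [← hsum, hN1, mul_comm] at hsumle
    exact Nat.le_of_mul_le_mul_left hsumle hN1pos
  constructor
  · have := Subgroup.eq_of_le_of_card_ge
      (inf_le_left : Subgroup.centralizer ({u} : Set G) ⊓ G1 ≤ Subgroup.centralizer ({u} : Set G))
      (le_of_eq hkeq.symm)
    rw [← this]
    exact inf_le_right
  · intro m hmN hmG
    by_contra hcon
    have hempty : IsEmpty {c // ψ c = (⟨m, Subgroup.mem_inf.mpr ⟨hmN, hmG⟩⟩ :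
        (N ⊓ G1 : Subgroup G))} := by
      constructor
      rintro ⟨c, hc⟩
      apply hcon
      refine ⟨c.1, (Subgroup.mem_inf.mp c.2).2, ?_⟩
      have h1 : u⁻¹ * (c.1 * u * c.1⁻¹) = m := congrArg Subtype.val hc
      rw [← h1]; group
    have hlt : ∑ m : (N ⊓ G1 : Subgroup G), Nat.card {c // ψ c = m} <
        ∑ _m : (N ⊓ G1 : Subgroup G),
            Nat.card (Subgroup.centralizer ({u} : Set G) ⊓ G1 : Subgroup G) := by
      apply Finset.sum_lt_sum (fun m _ => hle m)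
      refine ⟨⟨m, Subgroup.mem_inf.mpr ⟨hmN, hmG⟩⟩, Finset.mem_univ _, ?_⟩
      rw [Nat.card_of_isEmpty, hkeq]
      exact Nat.card_pos
    have h2 : ∑ _m : (N ⊓ G1 : Subgroup G),
        Nat.card (Subgroup.centralizer ({u} : Set G) ⊓ G1 : Subgroup G) =
        Fintype.card (N ⊓ G1 : Subgroup G) *
          Nat.card (Subgroup.centralizer ({u} : Set G) ⊓ G1 : Subgroup G) := by simp
    rw [h2, ← hsum, hkeq, hN1, mul_comm] at hlt
    exact lt_irrefl _ hlt

end

/-- `P1` of the Camina request, first half. -/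
theorem cam_card {G : Type*} [Group G] [Finite G] (N : Subgroup G) [N.Normal]
    (hcam : ∀ g : G, g ∉ N → ∀ n ∈ N, ∃ x : G, x * g * x⁻¹ = g * n) (u : G) (hu : u ∉ N) :
    Nat.card (Subgroup.centralizer ({u} : Set G)) =
      Nat.card (Subgroup.centralizer ({(QuotientGroup.mk u : G ⧸ N)} : Set (G ⧸ N))) :=
  cam_card_aux N u hcam hu

/-- `P1` of the Camina request, second half. -/
theorem cam_supp {G : Type*} [Group G] [Finite G] (N : Subgroup G) [N.Normal]
    (hcam : ∀ g : G, g ∉ N → ∀ n ∈ N, ∃ x : G, x * g * x⁻¹ = g * n) (G1 : Subgroup G)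
    (hsup : G1 ⊔ N = ⊤) :
    (∀ u ∈ G1, u ∉ N → Subgroup.centralizer ({u} : Set G) ≤ G1) ∧
      (∀ u ∈ G1, u ∉ N → ∀ m ∈ N, m ∈ G1 → ∃ c ∈ G1, c * u * c⁻¹ = u * m) :=
  ⟨fun u hu1 hu => (cam_supp_aux N u hcam G1 hsup hu1 hu).1,
   fun u hu1 hu => (cam_supp_aux N u hcam G1 hsup hu1 hu).2⟩

end Cfsg.Agent.Lib.Helper1.Camina
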