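import Mathlib
import Cfsg.Agent.Lib.Helper1.EvenChar

set_option autoImplicit false

namespace Cfsg.Agent.Lib.Helper1.FourGen

open Cfsg.Agent.Lib.Helper11 Cfsg.Agent.Lib.Helper1.EvenChar

universe u

variable {G : Type u} [Group G]

/-- An odd-order element inverted by `t` has a square root conjugating `t` to `k * t`. -/
theorem sqrt_conj (k t : G) (hodd : Odd (orderOf k)) (hk : t * k * t⁻¹ = k⁻¹) :
    ∃ s ∈ Subgroup.zpowers k, s * t * s⁻¹ = k * t := by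
  obtain ⟨m, hm⟩ := hodd
  obtain ⟨s, hs⟩ : ∃ s, s = k ^ (m + 1) := ⟨_, rfl⟩
  have hsz : s ∈ Subgroup.zpowers k := by rw [hs]; exact Subgroup.pow_mem _ (Subgroup.mem_zpowers k) _
  have hs1 : t * s * t⁻¹ = s⁻¹ := by
    rw [hs, ← conj_pow, hk, inv_pow]
  have hs2 : s * s = k := by
    rw [hs, ← pow_add]
    have : m + 1 + (m + 1) = orderOf k + 1 := by omega
    rw [this, pow_succ, pow_orderOf_eq_one, one_mul]
  have h3 : t * s⁻¹ = s * t := by
    have h4 : t * s⁻¹ * t⁻¹ = s := by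
      have := congrArg Inv.inv hs1
      simp only [mul_inv_rev, inv_inv] at this
      rw [mul_assoc]; exact this
    calc t * s⁻¹ = t * s⁻¹ * t⁻¹ * t := by group
      _ = s * t := by rw [h4]
  refine ⟨s, hsz, ?_⟩
  calc s * t * s⁻¹ = s * (t * s⁻¹) := by group
    _ = s * (s * t) := by rw [h3]
    _ = k * t := by rw [← mul_assoc, hs2]

/-- Two involutions in the same coset of an odd-order subgroup `K` are conjugate under `K`,
by an element commuting with everything that commutes with both. -/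
theorem invol_conj [Finite G] (K : Subgroup G) (hK : Odd (Nat.card K))
    (t t₁ : G) (ht : t * t = 1) (ht₁ : t₁ * t₁ = 1) (hmem : t₁ * t⁻¹ ∈ K)
    (e : G) (he : Commute e t) (he₁ : Commute e t₁) :
    ∃ s ∈ K, s * t * s⁻¹ = t₁ ∧ Commute e s := by
  have hodd : Odd (orderOf (t₁ * t⁻¹)) := by
    have h1 : orderOf (⟨t₁ * t⁻¹, hmem⟩ : K) ∣ Nat.card K := orderOf_dvd_natCard _
    rw [← Subgroup.orderOf_coe] at h1
    exact Odd.of_dvd_nat hK h1
  have htinv : t⁻¹ = t := inv_eq_of_mul_eq_one_left ht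
  have ht₁inv : t₁⁻¹ = t₁ := inv_eq_of_mul_eq_one_left ht₁
  have hk : t * (t₁ * t⁻¹) * t⁻¹ = (t₁ * t⁻¹)⁻¹ := by
    rw [mul_inv_rev, inv_inv, ht₁inv, htinv]
    calc t * (t₁ * t) * t = t * t₁ * (t * t) := by group
      _ = t * t₁ := by rw [ht, mul_one]
  obtain ⟨s, hs, hs2⟩ := sqrt_conj (t₁ * t⁻¹) t hodd hk
  refine ⟨s, (Subgroup.zpowers_le.mpr hmem) hs, ?_, ?_⟩
  · rw [hs2]; group
  · obtain ⟨n, rfl⟩ := hs
    exact Commute.zpow_right (he₁.mul_right he.inv_right) n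

/-- Four-group generation: if commuting involutions `a`, `b` normalize the odd-order subgroup `K`,
then `K = C_K(b) C_K(ab) C_K(a)`. -/
theorem four_gen [Finite G] (K : Subgroup G) (hK : Odd (Nat.card K))
    (a b : G) (ha : a * a = 1) (hb : b * b = 1) (hab : a * b = b * a)
    (haK : a ∈ Subgroup.normalizer (K : Set G)) (hbK : b ∈ Subgroup.normalizer (K : Set G))
    (k : G) (hk : k ∈ K) :
    ∃ x y w : G, x ∈ K ∧ y ∈ K ∧ w ∈ K ∧ Commute b x ∧ Commute (a * b) y ∧ Commute a w ∧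
      k = x * y * w := by
  have hainv : a⁻¹ = a := inv_eq_of_mul_eq_one_left ha
  have hbinv : b⁻¹ = b := inv_eq_of_mul_eq_one_left hb
  have hc : (a * b) * (a * b) = 1 := by
    calc a * b * (a * b) = a * (b * a) * b := by group
      _ = a * (a * b) * b := by rw [hab]
      _ = (a * a) * (b * b) := by group
      _ = 1 := by rw [ha, hb, one_mul]
  have hcK : a * b ∈ Subgroup.normalizer (K : Set G) := mul_mem haK hbK
  have hnorm : ∀ t ∈ Subgroup.normalizer (K : Set G), ∀ h ∈ K, t * h * t⁻¹ ∈ K :=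
    fun t ht h hh => (Subgroup.mem_normalizer_iff.mp ht h).mp hh
  obtain ⟨a', ha'⟩ : ∃ a', a' = k * a * k⁻¹ := ⟨_, rfl⟩
  have ha'2 : a' * a' = 1 := by
    rw [ha']
    calc k * a * k⁻¹ * (k * a * k⁻¹) = k * (a * a) * k⁻¹ := by group
      _ = 1 := by rw [ha]; group
  have ha'inv : a'⁻¹ = a' := inv_eq_of_mul_eq_one_left ha'2
  obtain ⟨x, hx⟩ : ∃ x, x = a' * b := ⟨_, rfl⟩
  have hxinv : x⁻¹ = b * a' := by rw [hx, mul_inv_rev, hbinv, ha'inv]
  have hk₀ : x * (a * b)⁻¹ ∈ K := by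
    have : x * (a * b)⁻¹ = k * (a * k⁻¹ * a⁻¹) := by rw [hx, ha']; group
    rw [this]; exact mul_mem hk (hnorm a haK _ (inv_mem hk))
  have hxx : x * x ∈ K := by
    have : x * x = (x * (a * b)⁻¹) * ((a * b) * (x * (a * b)⁻¹) * (a * b)⁻¹) * ((a * b) * (a * b)) := by
      group
    rw [this, hc, mul_one]; exact mul_mem hk₀ (hnorm _ hcK _ hk₀)
  have hodd : Odd (orderOf (x * x)) := by
    have h1 : orderOf (⟨x * x, hxx⟩ : K) ∣ Nat.card K := orderOf_dvd_natCard _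
    rw [← Subgroup.orderOf_coe] at h1
    exact Odd.of_dvd_nat hK h1
  obtain ⟨n, hn⟩ := hodd
  obtain ⟨c', hc'⟩ : ∃ c', c' = x ^ (2 * n + 1) := ⟨_, rfl⟩
  have hc'2 : c' * c' = 1 := by
    rw [hc', ← pow_add]
    have : 2 * n + 1 + (2 * n + 1) = 2 * orderOf (x * x) := by omega
    rw [this, pow_mul, pow_two, pow_orderOf_eq_one]
  have hc'inv : c'⁻¹ = c' := inv_eq_of_mul_eq_one_left hc'2
  have hc'K : c' * (a * b)⁻¹ ∈ K := by
    have : c' * (a * b)⁻¹ = (x * x) ^ n * (x * (a * b)⁻¹) := by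
      rw [hc', pow_succ, pow_mul, pow_two]; exact mul_assoc _ _ _
    rw [this]; exact mul_mem (pow_mem hxx n) hk₀
  have hac' : Commute a' c' := by
    have h1 : a' * x * a'⁻¹ = x⁻¹ := by
      rw [hxinv, hx, ha'inv]
      calc a' * (a' * b) * a' = (a' * a') * b * a' := by group
        _ = b * a' := by rw [ha'2, one_mul]
    have h2 : a' * c' * a'⁻¹ = c' := by
      rw [hc', ← conj_pow, h1, inv_pow, ← hc', hc'inv]
    show a' * c' = c' * a'
    calc a' * c' = a' * c' * a'⁻¹ * a' := by group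
      _ = c' * a' := by rw [h2]
  have hbc' : Commute b c' := by
    have h1 : b * x * b⁻¹ = x⁻¹ := by rw [hxinv, hx]; group
    have h2 : b * c' * b⁻¹ = c' := by
      rw [hc', ← conj_pow, h1, inv_pow, ← hc', hc'inv]
    show b * c' = c' * b
    calc b * c' = b * c' * b⁻¹ * b := by group
      _ = c' * b := by rw [h2]
  obtain ⟨g, hgK, hg, -⟩ := invol_conj K hK (a * b) c' hc hc'2 hc'K 1
    (Commute.one_left _) (Commute.one_left _)
  have hcg : a * b = g⁻¹ * c' * g := by rw [← hg]; group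
  -- the involution `b`
  obtain ⟨b₁, hb₁⟩ : ∃ b₁, b₁ = g⁻¹ * b * g := ⟨_, rfl⟩
  have hb₁2 : b₁ * b₁ = 1 := by
    rw [hb₁]
    calc g⁻¹ * b * g * (g⁻¹ * b * g) = g⁻¹ * (b * b) * g := by group
      _ = 1 := by rw [hb]; group
  have hb₁K : b₁ * b⁻¹ ∈ K := by
    have : b₁ * b⁻¹ = g⁻¹ * (b * g * b⁻¹) := by rw [hb₁]; group
    rw [this]; exact mul_mem (inv_mem hgK) (hnorm b hbK g hgK)
  have hcb : Commute (a * b) b := by
    show a * b * b = b * (a * b)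
    rw [← mul_assoc, ← hab]
  have hcb₁ : Commute (a * b) b₁ := by
    show a * b * b₁ = b₁ * (a * b)
    rw [hcg, hb₁]
    calc g⁻¹ * c' * g * (g⁻¹ * b * g) = g⁻¹ * (c' * b) * g := by group
      _ = g⁻¹ * (b * c') * g := by rw [hbc'.eq]
      _ = g⁻¹ * b * g * (g⁻¹ * c' * g) := by group
  obtain ⟨s₂, hs₂K, hs₂, hs₂c⟩ := invol_conj K hK b b₁ hb hb₁2 hb₁K (a * b) hcb hcb₁
  have hx₁ : Commute b (g * s₂) := by
    show b * (g * s₂) = g * s₂ * b
    have h5 : g * s₂ * b * (g * s₂)⁻¹ = b := by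
      calc g * s₂ * b * (g * s₂)⁻¹ = g * (s₂ * b * s₂⁻¹) * g⁻¹ := by group
        _ = g * (g⁻¹ * b * g) * g⁻¹ := by rw [hs₂, hb₁]
        _ = b := by group
    calc b * (g * s₂) = (g * s₂ * b * (g * s₂)⁻¹) * (g * s₂) := by rw [h5]
      _ = g * s₂ * b := by group
  -- the involution `a`
  obtain ⟨h, hh⟩ : ∃ h, h = g⁻¹ * k := ⟨_, rfl⟩
  have hhK : h ∈ K := by rw [hh]; exact mul_mem (inv_mem hgK) hk
  obtain ⟨a₁, ha₁⟩ : ∃ a₁, a₁ = h * a * h⁻¹ := ⟨_, rfl⟩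
  have ha₁2 : a₁ * a₁ = 1 := by
    rw [ha₁]
    calc h * a * h⁻¹ * (h * a * h⁻¹) = h * (a * a) * h⁻¹ := by group
      _ = 1 := by rw [ha]; group
  have ha₁K : a₁ * a⁻¹ ∈ K := by
    have : a₁ * a⁻¹ = h * (a * h⁻¹ * a⁻¹) := by rw [ha₁]; group
    rw [this]; exact mul_mem hhK (hnorm a haK _ (inv_mem hhK))
  have hca : Commute (a * b) a := by
    show a * b * a = a * (a * b)
    rw [mul_assoc, ← hab]
  have hca₁ : Commute (a * b) a₁ := by
    have ha₁' : a₁ = g⁻¹ * a' * g := by rw [ha₁, hh, ha']; group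
    show a * b * a₁ = a₁ * (a * b)
    rw [hcg, ha₁']
    calc g⁻¹ * c' * g * (g⁻¹ * a' * g) = g⁻¹ * (c' * a') * g := by group
      _ = g⁻¹ * (a' * c') * g := by rw [hac'.eq]
      _ = g⁻¹ * a' * g * (g⁻¹ * c' * g) := by group
  obtain ⟨s₁, hs₁K, hs₁, hs₁c⟩ := invol_conj K hK a a₁ ha ha₁2 ha₁K (a * b) hca hca₁
  have hw : Commute a (s₁⁻¹ * h) := by
    show a * (s₁⁻¹ * h) = s₁⁻¹ * h * a
    have h5 : s₁⁻¹ * h * a * (s₁⁻¹ * h)⁻¹ = a := by
      calc s₁⁻¹ * h * a * (s₁⁻¹ * h)⁻¹ = s₁⁻¹ * (h * a * h⁻¹) * s₁ := by group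
        _ = s₁⁻¹ * (s₁ * a * s₁⁻¹) * s₁ := by rw [← ha₁, ← hs₁]
        _ = a := by group
    calc a * (s₁⁻¹ * h) = (s₁⁻¹ * h * a * (s₁⁻¹ * h)⁻¹) * (s₁⁻¹ * h) := by rw [h5]
      _ = s₁⁻¹ * h * a := by group
  refine ⟨g * s₂, s₂⁻¹ * s₁, s₁⁻¹ * h, mul_mem hgK hs₂K, mul_mem (inv_mem hs₂K) hs₁K,
    mul_mem (inv_mem hs₁K) hhK, hx₁, ?_, hw, ?_⟩
  · exact (hs₂c.inv_right).mul_right hs₁c
  · rw [hh]; group

end Cfsg.Agent.Lib.Helper1.FourGen
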