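import Mathlib
import Cfsg.Prelude.Def_CaseTheorems
import Cfsg.Agent.Lib.Helper1.FourGen
import Cfsg.Agent.Lib.Helper12.CN

set_option autoImplicit false

namespace Cfsg.Agent.Lib.Helper1.FourCent

open Cfsg.Agent.Lib.Helper11 Cfsg.Agent.Lib.Helper1.EvenChar Cfsg.Agent.Lib.Helper1.FourGen

universe u

variable {G : Type u} [Group G]

theorem mem_cent_iff (u x : G) :
    x ∈ Subgroup.centralizer ({u} : Set G) ↔ x * u * x⁻¹ = u := by
  rw [Subgroup.mem_centralizer_iff]
  constructor
  · intro h
    have h1 := h u rfl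
    rw [← h1]; group
  · intro h y hy
    rw [Set.mem_singleton_iff] at hy
    rw [hy]
    calc u * x = x * u * x⁻¹ * x := by rw [h]
      _ = x * u := by group

theorem normalizer_zpowers_invol (u : G) (hu : u * u = 1) :
    Subgroup.normalizer ((Subgroup.zpowers u : Subgroup G) : Set G) =
      Subgroup.centralizer ({u} : Set G) := by
  apply le_antisymm
  · intro g hg
    rw [mem_cent_iff]
    have h1 : g * u * g⁻¹ ∈ Subgroup.zpowers u :=
      (Subgroup.mem_normalizer_iff.mp hg u).mp (Subgroup.mem_zpowers u)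
    obtain ⟨n, hn⟩ := Subgroup.mem_zpowers_iff.mp h1
    have h2 : u ^ n = 1 ∨ u ^ n = u := by
      rcases Int.emod_two_eq_zero_or_one n with h0 | h0
      · left
        have : n = 2 * (n / 2) := by omega
        rw [this, zpow_mul, zpow_two, hu, one_zpow]
      · right
        have : n = 2 * (n / 2) + 1 := by omega
        rw [this, zpow_add, zpow_mul, zpow_two, hu, one_zpow, one_mul, zpow_one]
    rcases h2 with h2 | h2
    · rw [h2] at hn
      have h3 : u = g⁻¹ * (g * u * g⁻¹) * g := by group
      have h4 : u = 1 := by rw [h3, ← hn]; group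
      rw [h4]; group
    · rw [h2] at hn
      exact hn.symm
  · calc Subgroup.centralizer ({u} : Set G)
        = Subgroup.centralizer ((Subgroup.zpowers u : Subgroup G) : Set G) := by
          rw [Subgroup.zpowers_eq_closure, Subgroup.centralizer_closure]
      _ ≤ _ := Subgroup.centralizer_le_normalizer _

theorem four_elts [Finite G] (U : Subgroup G) [IsKleinFour ↥U] {x y z : G} (hx : x ∈ U) (hy : y ∈ U)
    (hz : z ∈ U) (hx1 : x ≠ 1) (hy1 : y ≠ 1) (hxy : x ≠ y) (hz1 : z ≠ 1) (hzx : z ≠ x)
    (hzy : z ≠ y) : z = x * y := by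
  have := IsKleinFour.eq_mul_of_ne_all (G := ↥U) (x := ⟨x, hx⟩) (y := ⟨y, hy⟩) (z := ⟨z, hz⟩)
    (fun h => hx1 (congrArg Subtype.val h)) (fun h => hy1 (congrArg Subtype.val h))
    (fun h => hxy (congrArg Subtype.val h)) (fun h => hz1 (congrArg Subtype.val h))
    (fun h => hzx (congrArg Subtype.val h)) (fun h => hzy (congrArg Subtype.val h))
  exact congrArg Subtype.val this

theorem four_sq (U : Subgroup G) [IsKleinFour ↥U] {x : G} (hx : x ∈ U) : x * x = 1 := by
  have := IsKleinFour.mul_self (⟨x, hx⟩ : ↥U)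
  exact congrArg Subtype.val this

theorem four_comm (U : Subgroup G) [IsKleinFour ↥U] {x y : G} (hx : x ∈ U) (hy : y ∈ U) :
    x * y = y * x := by
  have := mul_comm_of_exponent_two (IsKleinFour.exponent_two (G := ↥U)) (⟨x, hx⟩ : ↥U) ⟨y, hy⟩
  exact congrArg Subtype.val this

theorem cyc_invol {Z : Type*} [Group Z] [Finite Z] [IsCyclic Z] (x y : Z) (hx : x * x = 1)
    (hy : y * y = 1) (hy1 : y ≠ 1) : x = 1 ∨ x = y := by
  classical
  haveI := Fintype.ofFinite Z
  by_contra hcon
  push Not at hcon
  have h := IsCyclic.card_pow_eq_one_le (α := Z) (n := 2) (by norm_num)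
  have hsub : ({1, y, x} : Finset Z) ⊆ Finset.univ.filter (fun a : Z => a ^ 2 = 1) := by
    intro w hw
    simp only [Finset.mem_insert, Finset.mem_singleton] at hw
    simp only [Finset.mem_filter, Finset.mem_univ, true_and]
    rcases hw with rfl | rfl | rfl
    · simp
    · rw [pow_two]; exact hy
    · rw [pow_two]; exact hx
  have hcard : ({1, y, x} : Finset Z).card = 3 :=
    Finset.card_eq_three.mpr ⟨1, y, x, hy1.symm, fun h => hcon.1 h.symm, fun h => hcon.2 h.symm, rfl⟩
  have := Finset.card_le_card hsub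
  omega

theorem le_normalizer_of_conj (S U : Subgroup G) (h : ∀ s ∈ S, ∀ v ∈ U, s * v * s⁻¹ ∈ U) :
    S ≤ Subgroup.normalizer (U : Set G) := by
  intro s hs
  rw [Subgroup.mem_normalizer_iff]
  intro v
  constructor
  · exact h s hs v
  · intro hv
    have := h s⁻¹ (inv_mem hs) _ hv
    have e : s⁻¹ * (s * v * s⁻¹) * s⁻¹⁻¹ = v := by group
    rwa [e] at this

theorem two_card_le [Finite G] (P : Sylow 2 G) (S : Subgroup G) (hS : IsPGroup 2 S) :
    Nat.card ↥S ≤ Nat.card ↥(P : Subgroup G) := by
  obtain ⟨R, hR⟩ := hS.exists_le_sylow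
  have h1 : Nat.card ↥S ≤ Nat.card ↥(R : Subgroup G) := Subgroup.card_le_of_le hR
  have h2 : Nat.card ↥(R : Subgroup G) = Nat.card ↥(P : Subgroup G) := by
    rw [Sylow.card_eq_multiplicity, Sylow.card_eq_multiplicity]
  omega

/-- If `v ∈ C` moves each element of `O_2(C)` by at most the central involution `z`, then `v`
centralizes every odd-order element `d ∈ C` whose commutator with `v` has odd order. -/
theorem lemB [Finite G] (C : Subgroup G) (hC : CharTwo C) (z : G) (hzC : ∀ x ∈ C, Commute z x)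
    (hz2 : z * z = 1) (v : G) (hvC : v ∈ C)
    (hv : ∀ q ∈ relPCore 2 C, v * q * v⁻¹ = q ∨ v * q * v⁻¹ = q * z)
    (d : G) (hdC : d ∈ C) (hodd : Odd (orderOf (v * d * v⁻¹ * d⁻¹))) : v * d * v⁻¹ = d := by
  obtain ⟨Q, hQ⟩ : ∃ Q, Q = relPCore 2 C := ⟨_, rfl⟩
  rw [← hQ] at hv
  have hQn : ∀ x ∈ C, ∀ q ∈ Q, x * q * x⁻¹ ∈ Q := by
    intro x hx q hq
    have h1 : x ∈ Subgroup.normalizer (Q : Set G) := by
      rw [hQ]; exact relPCore_normalizer 2 C (Subgroup.le_normalizer hx)
    exact (Subgroup.mem_normalizer_iff.mp h1 q).mp hq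
  have hzinv : z⁻¹ = z := inv_eq_of_mul_eq_one_left hz2
  have hv' : ∀ q ∈ Q, v⁻¹ * q * v = q ∨ v⁻¹ * q * v = q * z := by
    intro q hq
    have hq' : v⁻¹ * q * v ∈ Q := by
      have := hQn v⁻¹ (inv_mem hvC) q hq
      rwa [inv_inv] at this
    have e : v * (v⁻¹ * q * v) * v⁻¹ = q := by group
    rcases hv _ hq' with h1 | h1
    · left; rw [e] at h1; exact h1.symm
    · right
      rw [e] at h1
      calc v⁻¹ * q * v = v⁻¹ * q * v * z * z⁻¹ := by group
        _ = q * z⁻¹ := by rw [← h1]
        _ = q * z := by rw [hzinv]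
  obtain ⟨w, hw⟩ : ∃ w, w = v * d * v⁻¹ * d⁻¹ := ⟨_, rfl⟩
  rw [← hw] at hodd
  have hwC : w ∈ C := by
    rw [hw]; exact mul_mem (mul_mem (mul_mem hvC hdC) (inv_mem hvC)) (inv_mem hdC)
  have key : ∀ q ∈ Q, w * q * w⁻¹ = q ∨ w * q * w⁻¹ = q * z := by
    intro q hq
    have hq₁ : d⁻¹ * q * d ∈ Q := by
      have := hQn d⁻¹ (inv_mem hdC) q hq
      rwa [inv_inv] at this
    have e1 : w * q * w⁻¹ = v * (d * (v⁻¹ * (d⁻¹ * q * d) * v) * d⁻¹) * v⁻¹ := by rw [hw]; group
    have hzd : z * d⁻¹ = d⁻¹ * z := ((hzC d hdC).inv_right).eq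
    have hzv : z * v⁻¹ = v⁻¹ * z := ((hzC v hvC).inv_right).eq
    rcases hv' _ hq₁ with h1 | h1
    · rw [e1, h1]
      have e3 : d * (d⁻¹ * q * d) * d⁻¹ = q := by group
      rw [e3]; exact hv q hq
    · rw [e1, h1]
      have e3 : d * (d⁻¹ * q * d * z) * d⁻¹ = q * z := by
        calc d * (d⁻¹ * q * d * z) * d⁻¹ = q * d * (z * d⁻¹) := by group
          _ = q * d * (d⁻¹ * z) := by rw [hzd]
          _ = q * z := by group
      rw [e3]
      have e2 : v * (q * z) * v⁻¹ = v * q * v⁻¹ * z := by
        calc v * (q * z) * v⁻¹ = v * q * (z * v⁻¹) := by group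
          _ = v * q * (v⁻¹ * z) := by rw [hzv]
          _ = v * q * v⁻¹ * z := by group
      rw [e2]
      rcases hv q hq with h2 | h2
      · right; rw [h2]
      · left; rw [h2, mul_assoc, hz2, mul_one]
  have hwz : Commute w z := (hzC w hwC).symm
  have hcent : w ∈ Subgroup.centralizer (Q : Set G) := by
    rw [Subgroup.mem_centralizer_iff]
    intro q hq
    have hconj : w * q * w⁻¹ = q := by
      rcases key q hq with h1 | h1
      · exact h1
      · have h2 := pow_conj_eq_ec w q z h1 hwz.eq (orderOf w)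
        rw [pow_orderOf_eq_one, inv_one, mul_one, one_mul] at h2
        have h3 : z ^ orderOf w = 1 := by
          have := mul_left_cancel (a := q) (b := 1) (c := z ^ orderOf w) (by rw [mul_one]; exact h2)
          exact this.symm
        obtain ⟨m, hm⟩ := hodd
        have h4 : z = 1 := by
          rw [hm, pow_succ, pow_mul, pow_two, hz2, one_pow, one_mul] at h3
          exact h3
        rw [h1, h4, mul_one]
    calc q * w = w * q * w⁻¹ * w := by rw [hconj]
      _ = w * q := by group
  have hw1 : w = 1 := by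
    refine CharTwo.elt hC hwC ?_ (by rw [← hQ]; exact hcent)
    intro h2
    obtain ⟨m, hm⟩ := hodd
    omega
  rw [hw] at hw1
  calc v * d * v⁻¹ = v * d * v⁻¹ * d⁻¹ * d := by group
    _ = d := by rw [hw1, one_mul]

/-- `U` a four-group, `u ∈ U^#` with `C_G(u)` of characteristic 2 and `O_2(C_G(u))` normalizing `U`:
every `v ∈ U` centralizes each `d ∈ C_G(u)` with `[v, d]` of odd order. -/
theorem lemA [Finite G] (U : Subgroup G) [IsKleinFour ↥U] (u : G) (hu : u ∈ U) (hu1 : u ≠ 1)
    (hC : CharTwo (Subgroup.centralizer ({u} : Set G)))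
    (hQ : relPCore 2 (Subgroup.centralizer ({u} : Set G)) ≤ Subgroup.normalizer (U : Set G))
    (v : G) (hv : v ∈ U) (d : G) (hd : Commute u d) (hodd : Odd (orderOf (v * d * v⁻¹ * d⁻¹))) :
    v * d * v⁻¹ = d := by
  have hu2 : u * u = 1 := four_sq U hu
  have hCu : ∀ x ∈ Subgroup.centralizer ({u} : Set G), Commute u x := by
    intro x hx
    exact (Subgroup.mem_centralizer_iff.mp hx u rfl)
  refine lemB _ hC u hCu hu2 v ?_ ?_ d ?_ hodd
  · rw [Subgroup.mem_centralizer_iff]
    intro h hh
    rw [Set.mem_singleton_iff] at hh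
    rw [hh]; exact four_comm U hu hv
  · intro q hq
    have hqC : q ∈ Subgroup.centralizer ({u} : Set G) := relPCore_le 2 _ hq
    have hqu : Commute u q := hCu q hqC
    obtain ⟨v', hv'⟩ : ∃ v', v' = q⁻¹ * v * q := ⟨_, rfl⟩
    have hv'U : v' ∈ U := by
      have h1 : q⁻¹ ∈ Subgroup.normalizer (U : Set G) := inv_mem (hQ hq)
      have := (Subgroup.mem_normalizer_iff.mp h1 v).mp hv
      rw [inv_inv] at this; rw [hv']; exact this
    have e : v * q * v⁻¹ = q * (v' * v⁻¹) := by rw [hv']; group
    have hcases : v' = v ∨ v' = v * u := by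
      by_cases h1 : v = 1
      · left; rw [hv', h1]; group
      by_cases h2 : v = u
      · left; rw [hv', h2]
        calc q⁻¹ * u * q = q⁻¹ * (u * q) := by group
          _ = q⁻¹ * (q * u) := by rw [hqu.eq]
          _ = u := by group
      by_cases h3 : v' = v
      · left; exact h3
      right
      have hback : v = q * v' * q⁻¹ := by rw [hv']; group
      have hv'1 : v' ≠ 1 := by
        intro h; apply h1
        rw [hback, h]; group
      have hv'u : v' ≠ u := by
        intro h; apply h2
        rw [hback, h]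
        calc q * u * q⁻¹ = (u * q) * q⁻¹ := by rw [hqu.eq]
          _ = u := by group
      exact four_elts U hv hu hv'U h1 hu1 h2 hv'1 h3 hv'u
    rcases hcases with h | h
    · left; rw [e, h]; group
    · right; rw [e, h]
      have h5 : v * u * v⁻¹ = u := by
        calc v * u * v⁻¹ = (u * v) * v⁻¹ := by rw [four_comm U hu hv]
          _ = u := by group
      rw [h5]
  · rw [Subgroup.mem_centralizer_iff]
    intro h hh
    rw [Set.mem_singleton_iff] at hh
    rw [hh]; exact hd.eq

/-- `O_2(C_G(u))` normalizes the normal four-subgroup `U` of the Sylow 2-subgroup `P`, for `u ∈ U^#`. -/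
theorem core_le [Finite G] (P : Sylow 2 G) (U : Subgroup G) [IsKleinFour ↥U]
    (hUP : U ≤ (P : Subgroup G)) (hUn : (P : Subgroup G) ≤ Subgroup.normalizer (U : Set G))
    (hUZ : ¬ IsCyclic ↥((P : Subgroup G) ⊓ Subgroup.centralizer ((P : Subgroup G) : Set G)) →
      U ≤ Subgroup.centralizer ((P : Subgroup G) : Set G))
    (z : G) (hzU : z ∈ U) (hz1 : z ≠ 1)
    (hzP : z ∈ Subgroup.centralizer ((P : Subgroup G) : Set G))
    (u : G) (huU : u ∈ U) (hu1 : u ≠ 1) :
    relPCore 2 (Subgroup.centralizer ({u} : Set G)) ≤ Subgroup.normalizer (U : Set G) := by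
  obtain ⟨Q, hQ⟩ : ∃ Q, Q = relPCore 2 (Subgroup.centralizer ({u} : Set G)) := ⟨_, rfl⟩
  rw [← hQ]
  have hQ2 : IsPGroup 2 Q := by rw [hQ]; exact relPCore_isPGroup 2 _
  have hQn : Subgroup.centralizer ({u} : Set G) ≤ Subgroup.normalizer (Q : Set G) := by
    rw [hQ]; exact Subgroup.le_normalizer.trans (relPCore_normalizer 2 _)
  obtain ⟨P₀, hP₀⟩ : ∃ P₀, P₀ = (P : Subgroup G) ⊓ Subgroup.centralizer ({u} : Set G) := ⟨_, rfl⟩
  have hP₀P : P₀ ≤ (P : Subgroup G) := by rw [hP₀]; exact inf_le_left
  have hP₀mem : ∀ x, x ∈ P₀ ↔ x ∈ (P : Subgroup G) ∧ x * u * x⁻¹ = u := by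
    intro x; rw [hP₀, Subgroup.mem_inf, mem_cent_iff]
  have hP₀2 : IsPGroup 2 P₀ := P.isPGroup'.to_le hP₀P
  obtain ⟨S, hS⟩ : ∃ S, S = P₀ ⊔ Q := ⟨_, rfl⟩
  have hS2 : IsPGroup 2 S := by
    rw [hS]
    apply IsPGroup.to_sup_of_normal_right' hP₀2 hQ2
    rw [hP₀]; exact inf_le_right.trans hQn
  have hP₀S : P₀ ≤ S := by rw [hS]; exact le_sup_left
  have hQS : Q ≤ S := by rw [hS]; exact le_sup_right
  have hSP : Nat.card ↥S ≤ Nat.card ↥(P : Subgroup G) := two_card_le P S hS2
  have hu2 : u * u = 1 := four_sq U huU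
  have hz2 : z * z = 1 := four_sq U hzU
  have hzc : ∀ g ∈ (P : Subgroup G), Commute z g := by
    intro g hg
    exact ((Subgroup.mem_centralizer_iff.mp hzP) g hg).symm
  by_cases hcen : ∀ g ∈ (P : Subgroup G), g * u * g⁻¹ = u
  · have hPP₀ : (P : Subgroup G) ≤ P₀ := fun g hg => (hP₀mem g).mpr ⟨hg, hcen g hg⟩
    have hPS : (P : Subgroup G) ≤ S := hPP₀.trans hP₀S
    have hEq : (P : Subgroup G) = S := Subgroup.eq_of_le_of_card_ge hPS hSP
    exact (hQS.trans hEq.ge).trans hUn
  · push Not at hcen
    obtain ⟨t, htP, htu⟩ := hcen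
    have hcyc : IsCyclic ↥((P : Subgroup G) ⊓ Subgroup.centralizer ((P : Subgroup G) : Set G)) := by
      by_contra hnc
      have h1 := hUZ hnc huU
      apply htu
      have h2 : t * u = u * t := (Subgroup.mem_centralizer_iff.mp h1) t htP
      rw [h2]; group
    have htz : ∀ g ∈ (P : Subgroup G), g * z * g⁻¹ = z := by
      intro g hg
      rw [← (hzc g hg).eq]; group
    have huz : u ≠ z := by
      intro h; apply htu
      rw [h]; exact htz t htP
    have helts : ∀ v ∈ U, v = 1 ∨ v = z ∨ v = u ∨ v = z * u := by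
      intro v hv
      by_cases h1 : v = 1
      · left; exact h1
      by_cases h2 : v = z
      · right; left; exact h2
      by_cases h3 : v = u
      · right; right; left; exact h3
      right; right; right
      exact four_elts U hzU huU hv hz1 hu1 (Ne.symm huz) h1 h2 h3
    have hconj : ∀ g ∈ (P : Subgroup G), g * u * g⁻¹ = u ∨ g * u * g⁻¹ = z * u := by
      intro g hg
      have h1 : g * u * g⁻¹ ∈ U := (Subgroup.mem_normalizer_iff.mp (hUn hg) u).mp huU
      have hback : u = g⁻¹ * (g * u * g⁻¹) * g := by group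
      rcases helts _ h1 with h | h | h | h
      · exfalso; apply hu1; rw [hback, h]; group
      · exfalso; apply huz; rw [hback, h]
        have h5 := (hzc g hg).eq
        calc g⁻¹ * z * g = g⁻¹ * (z * g) := by group
          _ = g⁻¹ * (g * z) := by rw [h5]
          _ = z := by group
      · left; exact h
      · right; exact h
    have htu' : t * u * t⁻¹ = z * u := by
      rcases hconj t htP with h | h
      · exact absurd h htu
      · exact h
    have htzu : t * (z * u) * t⁻¹ = u := by
      calc t * (z * u) * t⁻¹ = (t * z * t⁻¹) * (t * u * t⁻¹) := by group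
        _ = z * (z * u) := by rw [htz t htP, htu']
        _ = (z * z) * u := by group
        _ = u := by rw [hz2, one_mul]
    have hsplit : ∀ g ∈ (P : Subgroup G), g ∈ P₀ ∨ t⁻¹ * g ∈ P₀ := by
      intro g hg
      rcases hconj g hg with h | h
      · left; exact (hP₀mem g).mpr ⟨hg, h⟩
      · right
        refine (hP₀mem _).mpr ⟨mul_mem (inv_mem htP) hg, ?_⟩
        calc t⁻¹ * g * u * (t⁻¹ * g)⁻¹ = t⁻¹ * (g * u * g⁻¹) * t := by group
          _ = t⁻¹ * (t * u * t⁻¹) * t := by rw [h, htu']
          _ = u := by group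
    have ht2 : t * t ∈ P₀ := by
      refine (hP₀mem _).mpr ⟨mul_mem htP htP, ?_⟩
      calc t * t * u * (t * t)⁻¹ = t * (t * u * t⁻¹) * t⁻¹ := by group
        _ = t * (z * u) * t⁻¹ := by rw [htu']
        _ = u := htzu
    have hxu : ∀ x ∈ P₀, x * (z * u) * x⁻¹ = z * u := by
      intro x hx
      have hxP := ((hP₀mem x).mp hx).1
      calc x * (z * u) * x⁻¹ = (x * z * x⁻¹) * (x * u * x⁻¹) := by group
        _ = z * u := by rw [htz x hxP, ((hP₀mem x).mp hx).2]
    have htn : ∀ x ∈ P₀, t * x * t⁻¹ ∈ P₀ := by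
      intro x hx
      have hxP := ((hP₀mem x).mp hx).1
      refine (hP₀mem _).mpr ⟨mul_mem (mul_mem htP hxP) (inv_mem htP), ?_⟩
      have h1 : t⁻¹ * u * t = z * u := by
        calc t⁻¹ * u * t = t⁻¹ * (t * (z * u) * t⁻¹) * t := by rw [htzu]
          _ = z * u := by group
      calc t * x * t⁻¹ * u * (t * x * t⁻¹)⁻¹ = t * (x * (t⁻¹ * u * t) * x⁻¹) * t⁻¹ := by group
        _ = t * (z * u) * t⁻¹ := by rw [h1, hxu x hx]
        _ = u := htzu
    have htn' : ∀ x ∈ P₀, t⁻¹ * x * t ∈ P₀ := by
      intro x hx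
      have h1 : t⁻¹ * x * t = (t * t)⁻¹ * (t * x * t⁻¹) * (t * t) := by group
      rw [h1]; exact mul_mem (mul_mem (inv_mem ht2) (htn x hx)) ht2
    have hcardP : Nat.card ↥(P : Subgroup G) ≤ 2 * Nat.card ↥P₀ := by
      have hsub : ((P : Subgroup G) : Set G) ⊆ (P₀ : Set G) ∪ (fun x => t * x) '' (P₀ : Set G) := by
        intro g hg
        rcases hsplit g hg with h | h
        · left; exact h
        · right; exact ⟨t⁻¹ * g, h, mul_inv_cancel_left t g⟩
      have e1 : Nat.card ↥(P : Subgroup G) = ((P : Subgroup G) : Set G).ncard :=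
        Nat.card_coe_set_eq _
      have e2 : Nat.card ↥P₀ = (P₀ : Set G).ncard := Nat.card_coe_set_eq _
      rw [e1, e2]
      calc ((P : Subgroup G) : Set G).ncard
          ≤ ((P₀ : Set G) ∪ (fun x => t * x) '' (P₀ : Set G)).ncard :=
            Set.ncard_le_ncard hsub (Set.toFinite _)
        _ ≤ (P₀ : Set G).ncard + ((fun x => t * x) '' (P₀ : Set G)).ncard := Set.ncard_union_le _ _
        _ ≤ (P₀ : Set G).ncard + (P₀ : Set G).ncard := by
            have := Set.ncard_image_le (f := fun x => t * x) (Set.toFinite (P₀ : Set G))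
            omega
        _ = 2 * (P₀ : Set G).ncard := by ring
    have hSN : S ≤ Subgroup.normalizer (P₀ : Set G) := by
      by_cases hEq : P₀ = S
      · rw [← hEq]; exact Subgroup.le_normalizer
      · have hlt : Nat.card ↥P₀ < Nat.card ↥S := by
          by_contra hge
          push Not at hge
          exact hEq (Subgroup.eq_of_le_of_card_ge hP₀S hge)
        have hdvd : Nat.card ↥P₀ ∣ Nat.card ↥S := Subgroup.card_dvd_of_le hP₀S
        have hpos : 0 < Nat.card ↥P₀ := Nat.card_pos
        have hcardS : Nat.card ↥S = 2 * Nat.card ↥P₀ := by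
          obtain ⟨m, hm⟩ := hdvd
          have hm2 : m = 2 := by
            rcases Nat.lt_or_ge m 2 with h | h
            · interval_cases m <;> omega
            · rcases Nat.eq_or_lt_of_le h with h' | h'
              · exact h'.symm
              · have : Nat.card ↥P₀ * 3 ≤ Nat.card ↥P₀ * m := Nat.mul_le_mul_left _ h'
                omega
          rw [hm, hm2, mul_comm]
        have hidx : (P₀.subgroupOf S).index = 2 := by
          have h1 := Subgroup.card_mul_index (P₀.subgroupOf S)
          have h2 : Nat.card ↥(P₀.subgroupOf S) = Nat.card ↥P₀ :=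
            Nat.card_congr (Subgroup.subgroupOfEquivOfLe hP₀S).toEquiv
          rw [h2, hcardS] at h1
          have h3 : Nat.card ↥P₀ * (P₀.subgroupOf S).index = Nat.card ↥P₀ * 2 := by
            rw [h1, mul_comm]
          exact Nat.eq_of_mul_eq_mul_left hpos h3
        haveI := Subgroup.normal_of_index_eq_two hidx
        exact (Subgroup.normal_subgroupOf_iff_le_normalizer hP₀S).mp inferInstance
    have hcenP : ∀ e, e ∈ P₀ → (∀ x ∈ P₀, Commute e x) → Commute e t → e * e = 1 →
        e = 1 ∨ e = z := by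
      intro e he hec het he2
      have heP : e ∈ (P : Subgroup G) := hP₀P he
      have hecP : ∀ g ∈ (P : Subgroup G), Commute e g := by
        intro g hg
        rcases hsplit g hg with h | h
        · exact hec g h
        · have h1 : Commute e (t * (t⁻¹ * g)) := het.mul_right (hec _ h)
          have h2 : t * (t⁻¹ * g) = g := by group
          rwa [h2] at h1
      have hemem : e ∈ (P : Subgroup G) ⊓ Subgroup.centralizer ((P : Subgroup G) : Set G) := by
        refine Subgroup.mem_inf.mpr ⟨heP, ?_⟩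
        rw [Subgroup.mem_centralizer_iff]
        intro g hg
        exact ((hecP g hg).eq).symm
      have hzmem : z ∈ (P : Subgroup G) ⊓ Subgroup.centralizer ((P : Subgroup G) : Set G) :=
        ⟨hUP hzU, hzP⟩
      haveI := hcyc
      have h5 := cyc_invol
        (Z := ↥((P : Subgroup G) ⊓ Subgroup.centralizer ((P : Subgroup G) : Set G)))
        ⟨e, hemem⟩ ⟨z, hzmem⟩ (Subtype.ext he2) (Subtype.ext hz2)
        (fun h => hz1 (congrArg Subtype.val h))
      rcases h5 with h | h
      · left; exact congrArg Subtype.val h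
      · right; exact congrArg Subtype.val h
    have huP₀ : u ∈ P₀ := (hP₀mem u).mpr ⟨hUP huU, by group⟩
    have huc : ∀ x ∈ P₀, Commute u x := by
      intro x hx
      have h := ((hP₀mem x).mp hx).2
      show u * x = x * u
      calc u * x = x * u * x⁻¹ * x := by rw [h]
        _ = x * u := by group
    have hinv : ∀ e ∈ P₀, (∀ x ∈ P₀, Commute e x) → e * e = 1 → e ∈ U := by
      intro e he hec he2
      obtain ⟨e', he'⟩ : ∃ e', e' = t * e * t⁻¹ := ⟨_, rfl⟩
      have he'P₀ : e' ∈ P₀ := by rw [he']; exact htn e he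
      have he'c : ∀ x ∈ P₀, Commute e' x := by
        intro x hx
        have hx' := hec (t⁻¹ * x * t) (htn' x hx)
        show e' * x = x * e'
        rw [he']
        calc t * e * t⁻¹ * x = t * (e * (t⁻¹ * x * t)) * t⁻¹ := by group
          _ = t * ((t⁻¹ * x * t) * e) * t⁻¹ := by rw [hx'.eq]
          _ = x * (t * e * t⁻¹) := by group
      have he'2 : e' * e' = 1 := by
        rw [he']
        calc t * e * t⁻¹ * (t * e * t⁻¹) = t * (e * e) * t⁻¹ := by group
          _ = 1 := by rw [he2]; group
      have hee' : Commute e e' := hec e' he'P₀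
      have hfc : ∀ x ∈ P₀, Commute (e * e') x := fun x hx => (hec x hx).mul_left (he'c x hx)
      have hft : Commute (e * e') t := by
        show e * e' * t = t * (e * e')
        have h1 : t * (e * e') = e' * ((t * t) * e) * t⁻¹ := by rw [he']; group
        rw [h1, ← (hec (t * t) ht2).eq, hee'.eq]
        group
      have hff : (e * e') * (e * e') = 1 := by
        calc e * e' * (e * e') = e * (e' * e) * e' := by group
          _ = e * (e * e') * e' := by rw [hee'.eq]
          _ = (e * e) * (e' * e') := by group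
          _ = 1 := by rw [he2, he'2, one_mul]
      rcases hcenP (e * e') (mul_mem he he'P₀) hfc hft hff with hf | hf
      · have h1 : e' = e := mul_left_cancel (hf.trans he2.symm)
        have het : Commute e t := by
          show e * t = t * e
          calc e * t = t * e * t⁻¹ * t := by rw [← he', h1]
            _ = t * e := by group
        rcases hcenP e he hec het he2 with h | h
        · rw [h]; exact one_mem U
        · rw [h]; exact hzU
      · have h1 : e' = e * z := by
          calc e' = (e * e) * e' := by rw [he2, one_mul]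
            _ = e * (e * e') := by group
            _ = e * z := by rw [hf]
        have heu : Commute e u := hec u huP₀
        have hf₂c : ∀ x ∈ P₀, Commute (e * u) x := fun x hx => (hec x hx).mul_left (huc x hx)
        have hf₂t : Commute (e * u) t := by
          show e * u * t = t * (e * u)
          symm
          calc t * (e * u) = (t * e * t⁻¹) * (t * u * t⁻¹) * t := by group
            _ = e * z * (z * u) * t := by rw [← he', h1, htu']
            _ = e * (z * z) * u * t := by group
            _ = e * u * t := by rw [hz2, mul_one]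
        have hf₂2 : (e * u) * (e * u) = 1 := by
          calc e * u * (e * u) = e * (u * e) * u := by group
            _ = e * (e * u) * u := by rw [heu.eq]
            _ = (e * e) * (u * u) := by group
            _ = 1 := by rw [he2, hu2, one_mul]
        rcases hcenP (e * u) (mul_mem he huP₀) hf₂c hf₂t hf₂2 with h | h
        · have h6 : e = u⁻¹ := eq_inv_of_mul_eq_one_left h
          rw [h6]; exact inv_mem huU
        · have h6 : e = z * u⁻¹ := eq_mul_inv_of_mul_eq h
          rw [h6]; exact mul_mem hzU (inv_mem huU)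
    have hUP₀ : U ≤ P₀ := by
      intro v hv
      refine (hP₀mem v).mpr ⟨hUP hv, ?_⟩
      calc v * u * v⁻¹ = (u * v) * v⁻¹ := by rw [four_comm U huU hv]
        _ = u := by group
    have hUc : ∀ v ∈ U, ∀ x ∈ P₀, Commute v x := by
      intro v hv x hx
      rcases helts v hv with h | h | h | h
      · rw [h]; exact Commute.one_left x
      · rw [h]; exact hzc x (hP₀P hx)
      · rw [h]; exact huc x hx
      · rw [h]; exact (hzc x (hP₀P hx)).mul_left (huc x hx)
    have hSU : S ≤ Subgroup.normalizer (U : Set G) := by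
      apply le_normalizer_of_conj
      intro s hs v hv
      have hsn := hSN hs
      have hsn' := hSN (inv_mem hs)
      apply hinv
      · exact (Subgroup.mem_normalizer_iff.mp hsn v).mp (hUP₀ hv)
      · intro x hx
        have hx' : s⁻¹ * x * s ∈ P₀ := by
          have := (Subgroup.mem_normalizer_iff.mp hsn' x).mp hx
          rwa [inv_inv] at this
        have h1 := hUc v hv _ hx'
        show s * v * s⁻¹ * x = x * (s * v * s⁻¹)
        calc s * v * s⁻¹ * x = s * (v * (s⁻¹ * x * s)) * s⁻¹ := by group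
          _ = s * ((s⁻¹ * x * s) * v) * s⁻¹ := by rw [h1.eq]
          _ = x * (s * v * s⁻¹) := by group
      · calc s * v * s⁻¹ * (s * v * s⁻¹) = s * (v * v) * s⁻¹ := by group
          _ = 1 := by rw [four_sq U hv]; group
    exact hQS.trans hSU

/-- In a group of characteristic 2 type, a normal four-subgroup `U` of a Sylow 2-subgroup `P`
(central in `P` when `Z(P)` is not cyclic) centralizes every odd-order subgroup it normalizes. -/
theorem four_centralizes [Finite G] (h2 : Cfsg.IsCharacteristicTwoType G)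
    (P : Sylow 2 G) (U : Subgroup G) (hUP : U ≤ (P : Subgroup G))
    (hUn : (P : Subgroup G) ≤ Subgroup.normalizer (U : Set G))
    (hU4 : IsKleinFour ↥U)
    (hUZ : ¬ IsCyclic ↥((P : Subgroup G) ⊓ Subgroup.centralizer ((P : Subgroup G) : Set G)) →
      U ≤ Subgroup.centralizer ((P : Subgroup G) : Set G))
    (K : Subgroup G) (hK : Odd (Nat.card K)) (hUK : U ≤ Subgroup.normalizer (K : Set G)) :
    U ≤ Subgroup.centralizer (K : Set G) := by
  haveI := hU4
  have hUbot : U ≠ ⊥ := by
    apply (Subgroup.one_lt_card_iff_ne_bot U).mp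
    rw [IsKleinFour.card_four]; norm_num
  obtain ⟨z, hzU, hz1, hzP⟩ : ∃ z ∈ U, z ≠ 1 ∧
      z ∈ Subgroup.centralizer ((P : Subgroup G) : Set G) := by
    haveI : Group.IsNilpotent ↥(P : Subgroup G) := P.isPGroup'.isNilpotent
    haveI : (U.subgroupOf (P : Subgroup G)).Normal :=
      (Subgroup.normal_subgroupOf_iff_le_normalizer hUP).mpr hUn
    have hne : U.subgroupOf (P : Subgroup G) ≠ ⊥ := by
      intro hbot
      obtain ⟨x, hx1⟩ := (Subgroup.ne_bot_iff_exists_ne_one).mp hUbot
      have h1 : (⟨(x : G), hUP x.2⟩ : ↥(P : Subgroup G)) ∈ U.subgroupOf (P : Subgroup G) :=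
        Subgroup.mem_subgroupOf.mpr x.2
      rw [hbot] at h1
      have h3 := Subgroup.mem_bot.mp h1
      apply hx1
      apply Subtype.ext
      have h5 : ((⟨(x : G), hUP x.2⟩ : ↥(P : Subgroup G)) : G) = ((1 : ↥(P : Subgroup G)) : G) :=
        congrArg Subtype.val h3
      exact h5
    have h3 := Cfsg.Agent.Lib.Helper12.normal_inf_center_ne_bot' (U.subgroupOf (P : Subgroup G)) hne
    obtain ⟨a, ha1⟩ := (Subgroup.ne_bot_iff_exists_ne_one).mp h3
    refine ⟨((a : ↥(P : Subgroup G)) : G), Subgroup.mem_subgroupOf.mp a.2.1, ?_, ?_⟩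
    · intro h
      apply ha1
      apply Subtype.ext
      apply Subtype.ext
      exact h
    · rw [Subgroup.mem_centralizer_iff]
      intro g hg
      have h4 := (Subgroup.mem_center_iff.mp a.2.2) ⟨g, hg⟩
      exact congrArg Subtype.val h4
  have hchar : ∀ u ∈ U, u ≠ 1 → CharTwo (Subgroup.centralizer ({u} : Set G)) := by
    intro u hu hu1
    have hu2 := four_sq U hu
    rw [← normalizer_zpowers_invol u hu2]
    apply charTwo_of_subtype
    apply h2.2
    · exact P.isPGroup'.to_le ((Subgroup.zpowers_le.mpr hu).trans hUP)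
    · intro hbot
      have h1 : u ∈ Subgroup.zpowers u := Subgroup.mem_zpowers u
      rw [hbot] at h1
      exact hu1 (Subgroup.mem_bot.mp h1)
  have key : ∀ u ∈ U, u ≠ 1 → ∀ v ∈ U, ∀ d ∈ K, Commute u d → v * d * v⁻¹ = d := by
    intro u hu hu1 v hv d hd hud
    apply lemA U u hu hu1 (hchar u hu hu1) (core_le P U hUP hUn hUZ z hzU hz1 hzP u hu hu1)
      v hv d hud
    have hvK := hUK hv
    have hwK : v * d * v⁻¹ * d⁻¹ ∈ K :=
      mul_mem ((Subgroup.mem_normalizer_iff.mp hvK d).mp hd) (inv_mem hd)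
    have h1 : orderOf (⟨v * d * v⁻¹ * d⁻¹, hwK⟩ : K) ∣ Nat.card K := orderOf_dvd_natCard _
    rw [← Subgroup.orderOf_coe] at h1
    exact Odd.of_dvd_nat hK h1
  obtain ⟨u, huU, hu1, huz⟩ : ∃ u ∈ U, u ≠ 1 ∧ u ≠ z := by
    by_contra hcon
    push Not at hcon
    have hsub : (U : Set G) ⊆ {1, z} := by
      intro x hx
      by_cases h1 : x = 1
      · simp [h1]
      · simp [hcon x hx h1]
    have hc : Nat.card ↥U ≤ 2 := by
      have e1 : Nat.card ↥U = (U : Set G).ncard := Nat.card_coe_set_eq _
      rw [e1]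
      calc (U : Set G).ncard ≤ ({1, z} : Set G).ncard := Set.ncard_le_ncard hsub (Set.toFinite _)
        _ ≤ 2 := (Set.ncard_insert_le _ _).trans (by rw [Set.ncard_singleton])
    have h4 := IsKleinFour.card_four (G := ↥U)
    omega
  have hzu1 : z * u ≠ 1 := by
    intro h
    apply huz
    exact (mul_left_cancel (h.trans (four_sq U hzU).symm))
  intro v hv
  rw [Subgroup.mem_centralizer_iff]
  intro k hk
  obtain ⟨x, y, w, hxK, hyK, hwK, hbx, hcy, haw, rfl⟩ := four_gen K hK z u (four_sq U hzU)
    (four_sq U huU) (four_comm U hzU huU) (hUK hzU) (hUK huU) k hk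
  have h1 := key u huU hu1 v hv x hxK hbx
  have h3 := key (z * u) (mul_mem hzU huU) hzu1 v hv y hyK hcy
  have h4 := key z hzU hz1 v hv w hwK haw
  calc x * y * w * v = (v * x * v⁻¹) * (v * y * v⁻¹) * (v * w * v⁻¹) * v := by rw [h1, h3, h4]
    _ = v * (x * y * w) := by group

end Cfsg.Agent.Lib.Helper1.FourCent
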