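import Mathlib
import Cfsg.Prelude.Def_OddOrderLocal
import Cfsg.Prelude.Def_Local
import Cfsg.Prelude.Def_CaseTheorems
import Cfsg.Agent.Lib.Helper1.FourCent
import Cfsg.Agent.Lib.Helper1.EvenChar2
import Cfsg.Agent.Lib.Helper6.PConstr
import Cfsg.Agent.Lib.Helper14.Cores

set_option autoImplicit false

namespace Cfsg.Agent.Lib.Helper1.FourSyl

open Cfsg.Agent.Lib.Helper11 Cfsg.Agent.Lib.Helper1.EvenChar Cfsg.Agent.Lib.Helper1.FourGen
  Cfsg.Agent.Lib.Helper1.FourCent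

universe u

variable {G : Type u} [Group G]

theorem zpow_invol (x : G) (hx : x * x = 1) (n : ℤ) : x ^ n = 1 ∨ x ^ n = x := by
  rcases Int.emod_two_eq_zero_or_one n with h0 | h0
  · left
    have : n = 2 * (n / 2) := by omega
    rw [this, zpow_mul, zpow_two, hx, one_zpow]
  · right
    have : n = 2 * (n / 2) + 1 := by omega
    rw [this, zpow_add, zpow_mul, zpow_two, hx, one_zpow, one_mul, zpow_one]

theorem pPrimeCore_eq_bot_of_charTwo {Y : Type u} [Group Y] [Finite Y]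
    (h : Cfsg.IsOfCharacteristicTwo Y) : Cfsg.pPrimeCore 2 Y = ⊥ := by
  have hO : (Nat.card (Cfsg.pPrimeCore 2 Y)).Coprime 2 :=
    Cfsg.Agent.Lib.Helper14.pPrimeCore_coprime 2
  have hQ : IsPGroup 2 (Cfsg.pCore 2 Y) := Cfsg.Agent.Lib.Helper11.pCore_isPGroup 2
  have hodd : ∀ x ∈ Cfsg.pPrimeCore 2 Y, ¬ 2 ∣ orderOf x := by
    intro x hx h2
    have h1 : orderOf (⟨x, hx⟩ : ↥(Cfsg.pPrimeCore 2 Y)) ∣ Nat.card ↥(Cfsg.pPrimeCore 2 Y) :=
      orderOf_dvd_natCard _
    rw [← Subgroup.orderOf_coe] at h1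
    have h3 : 2 ∣ Nat.card ↥(Cfsg.pPrimeCore 2 Y) := h2.trans h1
    have := Nat.Coprime.eq_one_of_dvd hO.symm h3
    omega
  have hOn : (Cfsg.pPrimeCore 2 Y).Normal := pPrimeCore_normal' 2
  have hQn : (Cfsg.pCore 2 Y).Normal := pCore_normal' 2
  rw [eq_bot_iff]
  intro x hx
  have hxc : x ∈ Subgroup.centralizer (Cfsg.pCore 2 Y : Set Y) := by
    rw [Subgroup.mem_centralizer_iff]
    intro q hq
    have hwO : x * q * x⁻¹ * q⁻¹ ∈ Cfsg.pPrimeCore 2 Y := by
      have : x * q * x⁻¹ * q⁻¹ = x * (q * x⁻¹ * q⁻¹) := by group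
      rw [this]; exact mul_mem hx (hOn.conj_mem _ (inv_mem hx) q)
    have hwQ : x * q * x⁻¹ * q⁻¹ ∈ Cfsg.pCore 2 Y := mul_mem (hQn.conj_mem q hq x) (inv_mem hq)
    have hw1 := eq_one_of_mem_two_group hQ hwQ (hodd _ hwO)
    calc q * x = (x * q * x⁻¹ * q⁻¹)⁻¹ * (x * q) := by group
      _ = x * q := by rw [hw1]; group
  have hxQ := h hxc
  exact Subgroup.mem_bot.mpr (eq_one_of_mem_two_group hQ hxQ (hodd x hx))

theorem isOfChar_of_charTwo [Finite G] (M : Subgroup G) (h : CharTwo M) :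
    Cfsg.IsOfCharacteristicTwo ↥M := by
  apply isOfCharacteristicTwo_of_elts
  intro y ho hyc
  have h1 : (y : G) = 1 := by
    refine CharTwo.elt h y.2 ?_ ?_
    · rw [Subgroup.orderOf_coe]; exact ho
    · rw [Subgroup.mem_centralizer_iff]
      intro r hr
      have hr' := mem_pCore_of_mem_relPCore M hr
      have := (Subgroup.mem_centralizer_iff.mp hyc) _ hr'
      exact congrArg Subtype.val this
  exact Subtype.ext h1

theorem isPConstrained_of_charTwo [Finite G] (M : Subgroup G) (h : CharTwo M) :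
    Cfsg.IsPConstrained 2 ↥M := by
  have h1 : Cfsg.IsOfCharacteristicTwo ↥M := isOfChar_of_charTwo M h
  have h2 := pPrimeCore_eq_bot_of_charTwo h1
  exact (Cfsg.Agent.Lib.Helper6.isPConstrained_iff_of_pPrimeCore_eq_bot h2).mpr h1

theorem isOfChar_of_constrained {Y : Type u} [Group Y] [Finite Y]
    (h : Cfsg.IsPConstrained 2 Y ∧ Cfsg.oddCore Y = ⊥) : Cfsg.IsOfCharacteristicTwo Y :=
  (Cfsg.Agent.Lib.Helper6.isPConstrained_iff_of_pPrimeCore_eq_bot h.2).mp h.1

/-- If all maximal 2-locals, or all involution centralizers, are 2-constrained with trivial core,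
then every 2-local has characteristic 2. -/
theorem charTwo_locals [Finite G]
    (h : (∀ M : Subgroup G, Cfsg.IsMaximalTwoLocal M →
        Cfsg.IsPConstrained 2 ↥M ∧ Cfsg.oddCore ↥M = ⊥) ∨
      (∀ t : G, orderOf t = 2 → Cfsg.IsPConstrained 2 ↥(Subgroup.centralizer ({t} : Set G)) ∧
        Cfsg.oddCore ↥(Subgroup.centralizer ({t} : Set G)) = ⊥))
    (T : Subgroup G) (hT : IsPGroup 2 T) (hT1 : T ≠ ⊥) :
    CharTwo (Subgroup.normalizer (T : Set G)) := by
  rcases h with h | h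
  · have hfin : {N : Subgroup G | Cfsg.IsTwoLocal N ∧ Subgroup.normalizer (T : Set G) ≤ N}.Finite :=
      Set.toFinite _
    obtain ⟨M, hNM, hMmax⟩ := hfin.exists_le_maximal (a := Subgroup.normalizer (T : Set G))
      ⟨⟨T, hT, hT1, rfl⟩, le_rfl⟩
    have hM2 : Cfsg.IsTwoLocal M := hMmax.prop.1
    have hMmax' : Cfsg.IsMaximalTwoLocal M := by
      refine ⟨hM2, ?_⟩
      intro N hN hMN
      have hNin : N ∈ {N : Subgroup G | Cfsg.IsTwoLocal N ∧ Subgroup.normalizer (T : Set G) ≤ N} :=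
        ⟨hN, hMmax.prop.2.trans hMN⟩
      exact le_antisymm (hMmax.le_of_ge hNin hMN) hMN
    have hMc : CharTwo M := charTwo_of_subtype M (isOfChar_of_constrained (h M hMmax'))
    have hTM : T ≤ M := Subgroup.le_normalizer.trans hNM
    have h5 := charTwo_normalizer hMc hTM hT
    rwa [inf_eq_right.mpr hNM] at h5
  · exact charTwo_of_subtype _
      (charTwoType_of_invol (fun x hx => isOfChar_of_constrained (h x hx)) T hT hT1)

theorem card_le_two_mul [Finite G] (S : Subgroup G) (t t' : G)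
    (hconj : ∀ s ∈ S, s * t * s⁻¹ = t ∨ s * t * s⁻¹ = t') :
    Nat.card ↥S ≤ 2 * Nat.card ↥(S ⊓ Subgroup.centralizer ({t} : Set G)) := by
  obtain ⟨S₀, hS₀⟩ : ∃ S₀, S₀ = S ⊓ Subgroup.centralizer ({t} : Set G) := ⟨_, rfl⟩
  rw [← hS₀]
  have hS₀mem : ∀ x, x ∈ S₀ ↔ x ∈ S ∧ x * t * x⁻¹ = t := by
    intro x; rw [hS₀, Subgroup.mem_inf, mem_cent_iff]
  by_cases hall : ∀ g ∈ S, g * t * g⁻¹ = t
  · have hle : S ≤ S₀ := fun g hg => (hS₀mem g).mpr ⟨hg, hall g hg⟩
    have := Subgroup.card_le_of_le hle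
    omega
  · push Not at hall
    obtain ⟨t₀, ht₀S, ht₀⟩ := hall
    have ht₀' : t₀ * t * t₀⁻¹ = t' := by
      rcases hconj t₀ ht₀S with h | h
      · exact absurd h ht₀
      · exact h
    have hsplit : ∀ g ∈ S, g ∈ S₀ ∨ t₀⁻¹ * g ∈ S₀ := by
      intro g hg
      rcases hconj g hg with h | h
      · left; exact (hS₀mem g).mpr ⟨hg, h⟩
      · right
        refine (hS₀mem _).mpr ⟨mul_mem (inv_mem ht₀S) hg, ?_⟩
        calc t₀⁻¹ * g * t * (t₀⁻¹ * g)⁻¹ = t₀⁻¹ * (g * t * g⁻¹) * t₀ := by group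
          _ = t₀⁻¹ * (t₀ * t * t₀⁻¹) * t₀ := by rw [h, ht₀']
          _ = t := by group
    have hsub : (S : Set G) ⊆ (S₀ : Set G) ∪ (fun x => t₀ * x) '' (S₀ : Set G) := by
      intro g hg
      rcases hsplit g hg with h | h
      · left; exact h
      · right; exact ⟨t₀⁻¹ * g, h, mul_inv_cancel_left t₀ g⟩
    have e1 : Nat.card ↥S = (S : Set G).ncard := Nat.card_coe_set_eq _
    have e2 : Nat.card ↥S₀ = (S₀ : Set G).ncard := Nat.card_coe_set_eq _
    rw [e1, e2]
    calc (S : Set G).ncard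
        ≤ ((S₀ : Set G) ∪ (fun x => t₀ * x) '' (S₀ : Set G)).ncard :=
          Set.ncard_le_ncard hsub (Set.toFinite _)
      _ ≤ (S₀ : Set G).ncard + ((fun x => t₀ * x) '' (S₀ : Set G)).ncard := Set.ncard_union_le _ _
      _ ≤ (S₀ : Set G).ncard + (S₀ : Set G).ncard := by
          have := Set.ncard_image_le (f := fun x => t₀ * x) (Set.toFinite (S₀ : Set G))
          omega
      _ = 2 * (S₀ : Set G).ncard := by ring

theorem index_two_of_card [Finite G] (S : Sylow 2 G) (S₀ S' : Subgroup G) (hS₀S' : S₀ ≤ S')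
    (hS' : IsPGroup 2 S') (hcard : Nat.card ↥(S : Subgroup G) ≤ 2 * Nat.card ↥S₀) (hne : S₀ ≠ S') :
    (S₀.subgroupOf S').index = 2 := by
  have hSP : Nat.card ↥S' ≤ Nat.card ↥(S : Subgroup G) := two_card_le S S' hS'
  have hlt : Nat.card ↥S₀ < Nat.card ↥S' := by
    by_contra hge
    push Not at hge
    exact hne (Subgroup.eq_of_le_of_card_ge hS₀S' hge)
  have hdvd : Nat.card ↥S₀ ∣ Nat.card ↥S' := Subgroup.card_dvd_of_le hS₀S'
  have hpos : 0 < Nat.card ↥S₀ := Nat.card_pos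
  have hcardS : Nat.card ↥S' = 2 * Nat.card ↥S₀ := by
    obtain ⟨m, hm⟩ := hdvd
    have hm2 : m = 2 := by
      rcases Nat.lt_or_ge m 2 with h | h
      · interval_cases m <;> omega
      · rcases Nat.eq_or_lt_of_le h with h' | h'
        · exact h'.symm
        · have : Nat.card ↥S₀ * 3 ≤ Nat.card ↥S₀ * m := Nat.mul_le_mul_left _ h'
          omega
    rw [hm, hm2, mul_comm]
  have h1 := Subgroup.card_mul_index (S₀.subgroupOf S')
  have h2 : Nat.card ↥(S₀.subgroupOf S') = Nat.card ↥S₀ :=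
    Nat.card_congr (Subgroup.subgroupOfEquivOfLe hS₀S').toEquiv
  rw [h2, hcardS] at h1
  have h3 : Nat.card ↥S₀ * (S₀.subgroupOf S').index = Nat.card ↥S₀ * 2 := by
    rw [h1, mul_comm]
  exact Nat.eq_of_mul_eq_mul_left hpos h3

/-- `S` a Sylow 2-subgroup normalizing the odd-order subgroup `X`, `t ∈ S` an involution with at most
two `S`-conjugates and `C_G(t)` of characteristic 2: then `C_X(t) = 1`. -/
theorem cent_odd_trivial [Finite G] (S : Sylow 2 G) (X : Subgroup G) (hX : Odd (Nat.card ↥X))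
    (hSX : (S : Subgroup G) ≤ Subgroup.normalizer (X : Set G))
    (t : G) (hC : CharTwo (Subgroup.centralizer ({t} : Set G)))
    (t' : G) (hconj : ∀ s ∈ (S : Subgroup G), s * t * s⁻¹ = t ∨ s * t * s⁻¹ = t')
    (d : G) (hdX : d ∈ X) (hdt : Commute t d) : d = 1 := by
  obtain ⟨C, hCdef⟩ : ∃ C, C = Subgroup.centralizer ({t} : Set G) := ⟨_, rfl⟩
  rw [← hCdef] at hC
  obtain ⟨Q, hQ⟩ : ∃ Q, Q = relPCore 2 C := ⟨_, rfl⟩
  have hQ2 : IsPGroup 2 Q := by rw [hQ]; exact relPCore_isPGroup 2 _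
  have hQC : Q ≤ C := by rw [hQ]; exact relPCore_le 2 _
  have hQn : ∀ x ∈ C, ∀ q ∈ Q, x * q * x⁻¹ ∈ Q := by
    intro x hx q hq
    have h1 : x ∈ Subgroup.normalizer (Q : Set G) := by
      rw [hQ]; exact relPCore_normalizer 2 C (Subgroup.le_normalizer hx)
    exact (Subgroup.mem_normalizer_iff.mp h1 q).mp hq
  obtain ⟨S₀, hS₀⟩ : ∃ S₀, S₀ = (S : Subgroup G) ⊓ C := ⟨_, rfl⟩
  have hS₀S : S₀ ≤ (S : Subgroup G) := by rw [hS₀]; exact inf_le_left
  have hS₀2 : IsPGroup 2 S₀ := S.isPGroup'.to_le hS₀S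
  obtain ⟨S', hS'⟩ : ∃ S', S' = S₀ ⊔ Q := ⟨_, rfl⟩
  have hS'2 : IsPGroup 2 S' := by
    rw [hS']
    apply IsPGroup.to_sup_of_normal_right' hS₀2 hQ2
    rw [hS₀, hQ]
    exact inf_le_right.trans (Subgroup.le_normalizer.trans (relPCore_normalizer 2 _))
  have hS₀S' : S₀ ≤ S' := by rw [hS']; exact le_sup_left
  have hQS' : Q ≤ S' := by rw [hS']; exact le_sup_right
  have hcard : Nat.card ↥(S : Subgroup G) ≤ 2 * Nat.card ↥S₀ := by
    rw [hS₀, hCdef]; exact card_le_two_mul (S : Subgroup G) t t' hconj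
  have hdC : d ∈ C := by
    rw [hCdef, Subgroup.mem_centralizer_iff]
    intro h hh
    rw [Set.mem_singleton_iff] at hh
    rw [hh]; exact hdt.eq
  have hoddX : ∀ x ∈ X, ¬ 2 ∣ orderOf x := by
    intro x hx h2
    have h1 : orderOf (⟨x, hx⟩ : ↥X) ∣ Nat.card ↥X := orderOf_dvd_natCard _
    rw [← Subgroup.orderOf_coe] at h1
    obtain ⟨m, hm⟩ := hX
    have h3 : 2 ∣ Nat.card ↥X := h2.trans h1
    omega
  -- Step A
  have stepA : ∀ q ∈ Q, q ∈ (S : Subgroup G) → d * q = q * d := by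
    intro q hq hqS
    have hwX : q * d * q⁻¹ * d⁻¹ ∈ X :=
      mul_mem ((Subgroup.mem_normalizer_iff.mp (hSX hqS) d).mp hdX) (inv_mem hdX)
    have hwQ : q * d * q⁻¹ * d⁻¹ ∈ Q := by
      have : q * d * q⁻¹ * d⁻¹ = q * (d * q⁻¹ * d⁻¹) := by group
      rw [this]; exact mul_mem hq (hQn d hdC _ (inv_mem hq))
    have hw1 := eq_one_of_mem_two_group hQ2 hwQ (hoddX _ hwX)
    calc d * q = (q * d * q⁻¹ * d⁻¹)⁻¹ * (q * d) := by group
      _ = q * d := by rw [hw1]; group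
  -- Step B
  have stepB : ∀ q ∈ Q, d * q = q * d := by
    intro q hq
    by_cases hqS : q ∈ (S : Subgroup G)
    · exact stepA q hq hqS
    · have hne : S₀ ≠ S' := by
        intro hEq
        apply hqS
        have : q ∈ S' := hQS' hq
        rw [← hEq] at this
        exact hS₀S this
      have hidx := index_two_of_card S S₀ S' hS₀S' hS'2 hcard hne
      obtain ⟨q', hq'⟩ : ∃ q', q' = d * q * d⁻¹ := ⟨_, rfl⟩
      have hq'Q : q' ∈ Q := by rw [hq']; exact hQn d hdC q hq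
      have hq'S : q' ∉ (S : Subgroup G) := by
        intro hq'S
        apply hqS
        have h1 := stepA q' hq'Q hq'S
        have h2 : q = q' := by
          calc q = d⁻¹ * (d * q * d⁻¹) * d := by group
            _ = d⁻¹ * q' * d := by rw [← hq']
            _ = d⁻¹ * (d * q') := by rw [h1]; group
            _ = q' := by group
        rw [h2]; exact hq'S
      have hcS₀ : q⁻¹ * q' ∈ S₀ := by
        have h1 := Subgroup.mul_mem_iff_of_index_two hidx
          (a := (⟨q⁻¹, hQS' (inv_mem hq)⟩ : ↥S')) (b := (⟨q', hQS' hq'Q⟩ : ↥S'))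
        have ha : (⟨q⁻¹, hQS' (inv_mem hq)⟩ : ↥S') ∉ S₀.subgroupOf S' := by
          intro hmem
          have h2 : q⁻¹ ∈ S₀ := Subgroup.mem_subgroupOf.mp hmem
          apply hqS
          have h3 := hS₀S (inv_mem h2)
          rwa [inv_inv] at h3
        have hb : (⟨q', hQS' hq'Q⟩ : ↥S') ∉ S₀.subgroupOf S' := by
          intro hmem
          exact hq'S (hS₀S (Subgroup.mem_subgroupOf.mp hmem))
        have h4 := h1.mpr ⟨fun h => absurd h ha, fun h => absurd h hb⟩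
        exact Subgroup.mem_subgroupOf.mp h4
      have hcQ : q⁻¹ * q' ∈ Q := mul_mem (inv_mem hq) hq'Q
      have hdc := stepA _ hcQ (hS₀S hcS₀)
      have hconj' : d * q * d⁻¹ = q * (q⁻¹ * q') := by rw [← hq']; group
      have h2 := pow_conj_eq_ec d q (q⁻¹ * q') hconj' hdc (orderOf d)
      rw [pow_orderOf_eq_one, inv_one, mul_one, one_mul] at h2
      have h3 : (q⁻¹ * q') ^ orderOf d = 1 := by
        have := mul_left_cancel (a := q) (b := 1) (c := (q⁻¹ * q') ^ orderOf d)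
          (by rw [mul_one]; exact h2)
        exact this.symm
      have h4 : ¬ 2 ∣ orderOf (q⁻¹ * q') := by
        intro h5
        exact hoddX d hdX (h5.trans (orderOf_dvd_of_pow_eq_one h3))
      have h5 := eq_one_of_mem_two_group hQ2 hcQ h4
      have h6 : q' = q := by
        calc q' = q * (q⁻¹ * q') := by group
          _ = q := by rw [h5, mul_one]
      calc d * q = d * q * d⁻¹ * d := by group
        _ = q * d := by rw [← hq', h6]
  have hcent : d ∈ Subgroup.centralizer (relPCore 2 C : Set G) := by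
    rw [← hQ, Subgroup.mem_centralizer_iff]
    intro q hq
    exact (stepB q hq).symm
  exact CharTwo.elt hC hdC (hoddX d hdX) hcent

/-- From `A ∈ SCN(S)` of rank at least 3 (rank 2 would do): a central involution `z` of `S` and an
involution `u ≠ z` whose `S`-conjugates lie in `{u, u z}`. -/
theorem exists_normal_four [Finite G] (S : Sylow 2 G) (A : Subgroup G)
    (hA : Cfsg.IsSCN (S : Subgroup G) A) (hA3 : ¬ Cfsg.PRankLE 2 2 ↥A) :
    ∃ z u : G, z ∈ (S : Subgroup G) ∧ u ∈ (S : Subgroup G) ∧ z * z = 1 ∧ u * u = 1 ∧ z ≠ 1 ∧ u ≠ 1 ∧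
      u ≠ z ∧ (∀ s ∈ (S : Subgroup G), s * z * s⁻¹ = z) ∧
      (∀ s ∈ (S : Subgroup G), s * u * s⁻¹ = u ∨ s * u * s⁻¹ = u * z) := by
  obtain ⟨hAS, hSA, hAc⟩ := hA
  have hAab : ∀ a ∈ A, ∀ b ∈ A, a * b = b * a := by
    intro a ha b hb
    have h1 : a ∈ (S : Subgroup G) ⊓ Subgroup.centralizer (A : Set G) := by rw [hAc]; exact ha
    exact ((Subgroup.mem_centralizer_iff.mp (Subgroup.mem_inf.mp h1).2) b hb).symm
  let N : Subgroup G :=
    { carrier := {a | a ∈ A ∧ a * a = 1}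
      mul_mem' := by
        rintro a b ⟨ha, ha2⟩ ⟨hb, hb2⟩
        refine ⟨mul_mem ha hb, ?_⟩
        calc a * b * (a * b) = a * (b * a) * b := by group
          _ = a * (a * b) * b := by rw [hAab b hb a ha]
          _ = (a * a) * (b * b) := by group
          _ = 1 := by rw [ha2, hb2, one_mul]
      one_mem' := ⟨one_mem A, one_mul 1⟩
      inv_mem' := by
        rintro a ⟨ha, ha2⟩
        refine ⟨inv_mem ha, ?_⟩
        calc a⁻¹ * a⁻¹ = (a * a)⁻¹ := by group
          _ = 1 := by rw [ha2, inv_one] }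
  have hNmem : ∀ a, a ∈ N ↔ a ∈ A ∧ a * a = 1 := fun a => Iff.rfl
  have hNS : N ≤ (S : Subgroup G) := fun a ha => hAS ((hNmem a).mp ha).1
  have hSN : (S : Subgroup G) ≤ Subgroup.normalizer (N : Set G) := by
    apply le_normalizer_of_conj
    intro s hs a ha
    obtain ⟨haA, ha2⟩ := (hNmem a).mp ha
    refine (hNmem _).mpr ⟨(Subgroup.mem_normalizer_iff.mp (hSA hs) a).mp haA, ?_⟩
    calc s * a * s⁻¹ * (s * a * s⁻¹) = s * (a * a) * s⁻¹ := by group
      _ = 1 := by rw [ha2]; group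
  have hNcard : 4 < Nat.card ↥N := by
    unfold Cfsg.PRankLE at hA3
    push Not at hA3
    obtain ⟨E, -, hE2, hEcard⟩ := hA3
    have hle : E.map A.subtype ≤ N := by
      rintro _ ⟨e, he, rfl⟩
      have h2 : (e : G) * (e : G) = 1 := by
        have := congrArg Subtype.val (hE2 e he)
        simpa [pow_two] using this
      exact (hNmem _).mpr ⟨e.2, h2⟩
    have h1 := Subgroup.card_le_of_le hle
    rw [Subgroup.card_map_of_injective (Subgroup.subtype_injective A)] at h1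
    norm_num at hEcard
    omega
  have hS2 : IsPGroup 2 ↥(S : Subgroup G) := S.isPGroup'
  haveI : Group.IsNilpotent ↥(S : Subgroup G) := hS2.isNilpotent
  have hN'n : (N.subgroupOf (S : Subgroup G)).Normal :=
    (Subgroup.normal_subgroupOf_iff_le_normalizer hNS).mpr hSN
  have hNbot : N ≠ ⊥ := by
    intro hb
    rw [hb, Subgroup.card_bot] at hNcard
    omega
  have hne : N.subgroupOf (S : Subgroup G) ≠ ⊥ := by
    intro hbot
    obtain ⟨x, hx1⟩ := (Subgroup.ne_bot_iff_exists_ne_one).mp hNbot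
    have h1 : (⟨(x : G), hNS x.2⟩ : ↥(S : Subgroup G)) ∈ N.subgroupOf (S : Subgroup G) :=
      Subgroup.mem_subgroupOf.mpr x.2
    rw [hbot] at h1
    have h3 := Subgroup.mem_bot.mp h1
    apply hx1
    apply Subtype.ext
    have h5 : ((⟨(x : G), hNS x.2⟩ : ↥(S : Subgroup G)) : G) = ((1 : ↥(S : Subgroup G)) : G) :=
      congrArg Subtype.val h3
    exact h5
  have h3 := @Cfsg.Agent.Lib.Helper12.normal_inf_center_ne_bot' _ _ _
    (N.subgroupOf (S : Subgroup G)) hN'n hne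
  obtain ⟨a, ha1⟩ := (Subgroup.ne_bot_iff_exists_ne_one).mp h3
  obtain ⟨z', hz'def⟩ : ∃ z' : ↥(S : Subgroup G), z' = (a : ↥(S : Subgroup G)) := ⟨_, rfl⟩
  have hz'N : z' ∈ N.subgroupOf (S : Subgroup G) := by rw [hz'def]; exact (Subgroup.mem_inf.mp a.2).1
  have hz'c : z' ∈ Subgroup.center ↥(S : Subgroup G) := by
    rw [hz'def]; exact (Subgroup.mem_inf.mp a.2).2
  have hz'1 : z' ≠ 1 := by
    rw [hz'def]; intro h; apply ha1; exact Subtype.ext h
  have hzN : (z' : G) ∈ N := Subgroup.mem_subgroupOf.mp hz'N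
  have hz2 : (z' : G) * (z' : G) = 1 := ((hNmem _).mp hzN).2
  have hz'2 : z' * z' = 1 := Subtype.ext hz2
  have hzc : ∀ s ∈ (S : Subgroup G), s * (z' : G) * s⁻¹ = (z' : G) := by
    intro s hs
    have h4 := (Subgroup.mem_center_iff.mp hz'c) ⟨s, hs⟩
    have h5 : s * (z' : G) = (z' : G) * s := congrArg Subtype.val h4
    rw [h5]; group
  obtain ⟨Zs, hZs⟩ : ∃ Zs : Subgroup ↥(S : Subgroup G), Zs = Subgroup.zpowers z' := ⟨_, rfl⟩
  have hZsmem : ∀ x ∈ Zs, x = 1 ∨ x = z' := by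
    intro x hx
    rw [hZs] at hx
    obtain ⟨n, rfl⟩ := Subgroup.mem_zpowers_iff.mp hx
    exact zpow_invol z' hz'2 n
  haveI hZn : Zs.Normal := by
    constructor
    intro n hn g
    have hnc : n ∈ Subgroup.center ↥(S : Subgroup G) := by
      rcases hZsmem n hn with h | h
      · rw [h]; exact one_mem _
      · rw [h]; exact hz'c
    have h4 := Subgroup.mem_center_iff.mp hnc g
    have h5 : g * n * g⁻¹ = n := by rw [h4]; group
    rw [h5]; exact hn
  have hZcard : Nat.card ↥Zs ≤ 2 := by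
    rw [hZs, Nat.card_zpowers]
    exact orderOf_le_of_pow_eq_one (by norm_num) (by rw [pow_two]; exact hz'2)
  have hπs : Function.Surjective (QuotientGroup.mk' Zs) := QuotientGroup.mk'_surjective Zs
  have hNbn : ((N.subgroupOf (S : Subgroup G)).map (QuotientGroup.mk' Zs)).Normal :=
    hN'n.map _ hπs
  have hNbne : (N.subgroupOf (S : Subgroup G)).map (QuotientGroup.mk' Zs) ≠ ⊥ := by
    intro hbot
    rw [Subgroup.map_eq_bot_iff, QuotientGroup.ker_mk'] at hbot
    have h1 := Subgroup.card_le_of_le hbot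
    have h2 : Nat.card ↥(N.subgroupOf (S : Subgroup G)) = Nat.card ↥N :=
      Nat.card_congr (Subgroup.subgroupOfEquivOfLe hNS).toEquiv
    omega
  haveI : Group.IsNilpotent (↥(S : Subgroup G) ⧸ Zs) := (hS2.to_quotient Zs).isNilpotent
  have h6 := @Cfsg.Agent.Lib.Helper12.normal_inf_center_ne_bot' _ _ _
    ((N.subgroupOf (S : Subgroup G)).map (QuotientGroup.mk' Zs)) hNbn hNbne
  obtain ⟨b, hb1⟩ := (Subgroup.ne_bot_iff_exists_ne_one).mp h6
  obtain ⟨u', hu'N, hu'eq⟩ := Subgroup.mem_map.mp (Subgroup.mem_inf.mp b.2).1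
  have hbc := (Subgroup.mem_inf.mp b.2).2
  have hu'Z : u' ∉ Zs := by
    intro hmem
    apply hb1
    apply Subtype.ext
    rw [← hu'eq]
    exact (QuotientGroup.eq_one_iff u').mpr hmem
  have hu'1 : u' ≠ 1 := fun h => hu'Z (h ▸ one_mem Zs)
  have hu'z : u' ≠ z' := fun h => hu'Z (by rw [h, hZs]; exact Subgroup.mem_zpowers z')
  have huN : (u' : G) ∈ N := Subgroup.mem_subgroupOf.mp hu'N
  refine ⟨(z' : G), (u' : G), z'.2, u'.2, hz2, ((hNmem _).mp huN).2, ?_, ?_, ?_, hzc, ?_⟩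
  · intro h; exact hz'1 (Subtype.ext h)
  · intro h; exact hu'1 (Subtype.ext h)
  · intro h; exact hu'z (Subtype.ext h)
  · intro s hs
    have h7 := Subgroup.mem_center_iff.mp hbc (QuotientGroup.mk' Zs ⟨s, hs⟩)
    rw [← hu'eq, ← map_mul, ← map_mul] at h7
    have h8 : (u' * ⟨s, hs⟩)⁻¹ * (⟨s, hs⟩ * u') ∈ Zs := QuotientGroup.eq.mp h7.symm
    rcases hZsmem _ h8 with h9 | h9
    · left
      have h10 : ((u' : G) * s)⁻¹ * (s * (u' : G)) = 1 := congrArg Subtype.val h9
      calc s * (u' : G) * s⁻¹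
          = ((u' : G) * s) * (((u' : G) * s)⁻¹ * (s * (u' : G))) * s⁻¹ := by group
        _ = (u' : G) := by rw [h10]; group
    · right
      have h10 : ((u' : G) * s)⁻¹ * (s * (u' : G)) = (z' : G) := congrArg Subtype.val h9
      calc s * (u' : G) * s⁻¹
          = (u' : G) * (s * (((u' : G) * s)⁻¹ * (s * (u' : G))) * s⁻¹) := by group
        _ = (u' : G) * (s * (z' : G) * s⁻¹) := by rw [h10]
        _ = (u' : G) * (z' : G) := by rw [hzc s hs]

/-- General form of S3246. -/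
theorem main [Finite G] (S : Sylow 2 G) (A : Subgroup G) (hA : Cfsg.IsSCN (S : Subgroup G) A)
    (hA3 : ¬ Cfsg.PRankLE 2 2 ↥A)
    (h : (∀ M : Subgroup G, Cfsg.IsMaximalTwoLocal M →
        Cfsg.IsPConstrained 2 ↥M ∧ Cfsg.oddCore ↥M = ⊥) ∨
      (∀ t : G, orderOf t = 2 → Cfsg.IsPConstrained 2 ↥(Subgroup.centralizer ({t} : Set G)) ∧
        Cfsg.oddCore ↥(Subgroup.centralizer ({t} : Set G)) = ⊥)) :
    (∀ X : Subgroup G, Odd (Nat.card ↥X) →
        (S : Subgroup G) ≤ Subgroup.normalizer (X : Set G) → X = ⊥) ∧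
      (∀ T : Subgroup G, IsPGroup 2 ↥T → T ≠ ⊥ →
        Cfsg.IsPConstrained 2 ↥(Subgroup.normalizer (T : Set G))) := by
  have hloc : ∀ T : Subgroup G, IsPGroup 2 ↥T → T ≠ ⊥ →
      CharTwo (Subgroup.normalizer (T : Set G)) :=
    fun T hT hT1 => charTwo_locals h T hT hT1
  refine ⟨?_, fun T hT hT1 => isPConstrained_of_charTwo _ (hloc T hT hT1)⟩
  intro X hX hSX
  obtain ⟨z, u, hzS, huS, hz2, hu2, hz1, hu1, huz, hzc, huc⟩ := exists_normal_four S A hA hA3
  have hchar : ∀ t ∈ (S : Subgroup G), t * t = 1 → t ≠ 1 →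
      CharTwo (Subgroup.centralizer ({t} : Set G)) := by
    intro t htS ht2 ht1
    rw [← normalizer_zpowers_invol t ht2]
    apply hloc
    · exact S.isPGroup'.to_le (Subgroup.zpowers_le.mpr htS)
    · intro hbot
      have h1 : t ∈ Subgroup.zpowers t := Subgroup.mem_zpowers t
      rw [hbot] at h1
      exact ht1 (Subgroup.mem_bot.mp h1)
  have hzu : z * u = u * z := by
    have h1 := hzc u huS
    calc z * u = u * z * u⁻¹ * u := by rw [h1]
      _ = u * z := by group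
  have hzu2 : (z * u) * (z * u) = 1 := by
    calc z * u * (z * u) = z * (u * z) * u := by group
      _ = z * (z * u) * u := by rw [← hzu]
      _ = (z * z) * (u * u) := by group
      _ = 1 := by rw [hz2, hu2, one_mul]
  have hzu1 : z * u ≠ 1 := by
    intro h
    apply huz
    exact (mul_left_cancel (h.trans hz2.symm))
  have hzuc : ∀ s ∈ (S : Subgroup G),
      s * (z * u) * s⁻¹ = z * u ∨ s * (z * u) * s⁻¹ = z * (u * z) := by
    intro s hs
    have e : s * (z * u) * s⁻¹ = (s * z * s⁻¹) * (s * u * s⁻¹) := by group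
    rcases huc s hs with h | h
    · left; rw [e, hzc s hs, h]
    · right; rw [e, hzc s hs, h]
  rw [eq_bot_iff]
  intro k hk
  obtain ⟨x, y, w, hxK, hyK, hwK, hbx, hcy, haw, rfl⟩ :=
    four_gen X hX z u hz2 hu2 hzu (hSX hzS) (hSX huS) k hk
  have hx1 : x = 1 :=
    cent_odd_trivial S X hX hSX u (hchar u huS hu2 hu1) (u * z) huc x hxK hbx
  have hy1 : y = 1 :=
    cent_odd_trivial S X hX hSX (z * u) (hchar (z * u) (mul_mem hzS huS) hzu2 hzu1)
      (z * (u * z)) hzuc y hyK hcy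
  have hw1 : w = 1 :=
    cent_odd_trivial S X hX hSX z (hchar z hzS hz2 hz1) z (fun s hs => Or.inl (hzc s hs))
      w hwK haw
  rw [hx1, hy1, hw1]; simp

end Cfsg.Agent.Lib.Helper1.FourSyl
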