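import Mathlib
import Cfsg.Agent.Lib.Helper13.HCTData
set_option autoImplicit false

/-!
Seven generators of the centraliser of a transvection of `SL(5, 2)` (data of
`Cfsg.Agent.Lib.Helper13.HCT`): they lie in the special linear group, commute with the
transvection, satisfy the relator words, and generate a subgroup of order at least `21504`.
All computations go through a bitmask model of the action on column vectors.
-/

namespace Cfsg.Agent.Lib.Helper1.HeGens

open Cfsg.Agent.Lib.Helper13
open Matrix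

/-- bitmask of a vector. -/
def enc (v : Fin 5 → ZMod 2) : ℕ :=
  (v 0).val + 2 * (v 1).val + 4 * (v 2).val + 8 * (v 3).val + 16 * (v 4).val

/-- row bitmasks of the seven matrices. -/
def rows : Fin 7 → Fin 5 → ℕ :=
  ![![17, 2, 6, 8, 16], ![3, 2, 18, 30, 6], ![3, 2, 20, 8, 16], ![1, 2, 4, 10, 16],
    ![25, 2, 4, 8, 16], ![19, 2, 20, 24, 16], ![3, 2, 14, 8, 16]]

/-- parity of a five-bit number. -/
def par (x : ℕ) : ℕ := (x ^^^ (x >>> 1) ^^^ (x >>> 2) ^^^ (x >>> 3) ^^^ (x >>> 4)) % 2

/-- action of generator `i` on bitmasks. -/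
def mvN (i : Fin 7) (n : ℕ) : ℕ :=
  par (rows i 0 &&& n) + 2 * par (rows i 1 &&& n) + 4 * par (rows i 2 &&& n) +
    8 * par (rows i 3 &&& n) + 16 * par (rows i 4 &&& n)

/-- action of a word on bitmasks. -/
def actN (W : List (Fin 7)) (n : ℕ) : ℕ := W.foldr mvN n

/-- the matrix of a word. -/
def word (W : List (Fin 7)) : Matrix (Fin 5) (Fin 5) (ZMod 2) := (W.map HCT.mraw).prod

set_option maxRecDepth 100000 in
theorem enc_mv_aux : ∀ (i : Fin 7) (a b c d e : ZMod 2),
    enc (HCT.mraw i *ᵥ ![a, b, c, d, e]) = mvN i (enc ![a, b, c, d, e]) := by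
  decide

theorem vec_eta (v : Fin 5 → ZMod 2) : v = ![v 0, v 1, v 2, v 3, v 4] := by
  ext k; fin_cases k <;> rfl

theorem enc_mv (i : Fin 7) (v : Fin 5 → ZMod 2) : enc (HCT.mraw i *ᵥ v) = mvN i (enc v) := by
  rw [vec_eta v]; exact enc_mv_aux i _ _ _ _ _

theorem enc_lt (v : Fin 5 → ZMod 2) : enc v < 32 := by
  have h0 := ZMod.val_lt (v 0)
  have h1 := ZMod.val_lt (v 1)
  have h2 := ZMod.val_lt (v 2)
  have h3 := ZMod.val_lt (v 3)
  have h4 := ZMod.val_lt (v 4)
  unfold enc; omega

theorem enc_inj {v w : Fin 5 → ZMod 2} (h : enc v = enc w) : v = w := by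
  have h0 := ZMod.val_lt (v 0)
  have h1 := ZMod.val_lt (v 1)
  have h2 := ZMod.val_lt (v 2)
  have h3 := ZMod.val_lt (v 3)
  have h4 := ZMod.val_lt (v 4)
  have g0 := ZMod.val_lt (w 0)
  have g1 := ZMod.val_lt (w 1)
  have g2 := ZMod.val_lt (w 2)
  have g3 := ZMod.val_lt (w 3)
  have g4 := ZMod.val_lt (w 4)
  unfold enc at h
  ext k
  apply ZMod.val_injective 2
  fin_cases k <;> simp <;> omega

theorem word_nil : word [] = 1 := rfl

theorem word_cons (i : Fin 7) (W : List (Fin 7)) : word (i :: W) = HCT.mraw i * word W := by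
  simp [word]

theorem enc_word (W : List (Fin 7)) (v : Fin 5 → ZMod 2) :
    enc (word W *ᵥ v) = actN W (enc v) := by
  induction W with
  | nil => simp [word_nil, actN]
  | cons i W ih =>
    rw [word_cons, ← Matrix.mulVec_mulVec, enc_mv, ih]
    rfl

theorem word_eq_one {W : List (Fin 7)} (h : ∀ n < 32, actN W n = n) : word W = 1 := by
  have key : ∀ v : Fin 5 → ZMod 2, word W *ᵥ v = v := by
    intro v
    apply enc_inj
    rw [enc_word, h _ (enc_lt v)]
  ext i j
  have := congrFun (key (Pi.single j 1)) i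
  rw [Matrix.mulVec_single_one] at this
  rw [Matrix.one_apply, ← Pi.single_apply]
  exact this

set_option maxRecDepth 100000 in
theorem rel_check : ∀ W ∈ HCT.relW, ∀ n < 32, actN W n = n := by
  decide

set_option maxRecDepth 100000 in
theorem sq_check : ∀ i : Fin 7, ∀ n < 32, actN [i, i] n = n := by
  decide

theorem mraw_sq (i : Fin 7) : HCT.mraw i * HCT.mraw i = 1 := by
  have := word_eq_one (sq_check i)
  simpa [word] using this

theorem det_mraw (i : Fin 7) : (HCT.mraw i).det = 1 := by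
  have h := congrArg Matrix.det (mraw_sq i)
  rw [Matrix.det_mul, Matrix.det_one] at h
  have : ∀ x : ZMod 2, x * x = 1 → x = 1 := by decide
  exact this _ h

/-- the seven generators in the special linear group. -/
def mgen (i : Fin 7) : Matrix.SpecialLinearGroup (Fin 5) (ZMod 2) := ⟨HCT.mraw i, det_mraw i⟩

theorem coe_mgen (i : Fin 7) :
    ((mgen i : Matrix.SpecialLinearGroup (Fin 5) (ZMod 2)) : Matrix (Fin 5) (Fin 5) (ZMod 2)) =
      HCT.mraw i := rfl

set_option maxRecDepth 100000 in
theorem comm_tr : ∀ i : Fin 7,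
    (Matrix.transvection 0 1 1 : Matrix (Fin 5) (Fin 5) (ZMod 2)) * HCT.mraw i =
      HCT.mraw i * Matrix.transvection 0 1 1 := by
  decide

theorem mgen_mem (s : Matrix.SpecialLinearGroup (Fin 5) (ZMod 2))
    (hs : (s : Matrix (Fin 5) (Fin 5) (ZMod 2)) = Matrix.transvection 0 1 1) (i : Fin 7) :
    mgen i ∈ Subgroup.centralizer ({s} : Set (Matrix.SpecialLinearGroup (Fin 5) (ZMod 2))) := by
  rw [Subgroup.mem_centralizer_iff]
  intro h hh
  rw [Set.mem_singleton_iff] at hh
  subst hh
  apply Subtype.ext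
  rw [Matrix.SpecialLinearGroup.coe_mul, Matrix.SpecialLinearGroup.coe_mul, hs, coe_mgen]
  exact comm_tr i

theorem coe_prod (W : List (Fin 7)) :
    (((W.map mgen).prod : Matrix.SpecialLinearGroup (Fin 5) (ZMod 2)) :
      Matrix (Fin 5) (Fin 5) (ZMod 2)) = word W := by
  induction W with
  | nil => simp [word_nil]
  | cons i W ih =>
    rw [List.map_cons, List.prod_cons, Matrix.SpecialLinearGroup.coe_mul, ih, word_cons, coe_mgen]

theorem rel_one : ∀ W ∈ HCT.relW, (W.map mgen).prod = 1 := by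
  intro W hW
  apply Subtype.ext
  rw [coe_prod, Matrix.SpecialLinearGroup.coe_one]
  exact word_eq_one (rel_check W hW)

end Cfsg.Agent.Lib.Helper1.HeGens
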