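import Mathlib
import Cfsg.Agent.Lib.Helper1.HeGens
set_option autoImplicit false

/-!
The seven generators `mgen` of `Cfsg.Agent.Lib.Helper1.HeGens` generate a subgroup of `SL(5, 2)`
of order at least `21504 = 16 * 14 * 12 * 8` (stabiliser chain on the base vectors of
`Cfsg.Agent.Lib.Helper13.HCT`).
-/

namespace Cfsg.Agent.Lib.Helper1.HeGens

open Cfsg.Agent.Lib.Helper13
open Matrix

/-- the group element of a word. -/
def gw (W : List (Fin 7)) : Matrix.SpecialLinearGroup (Fin 5) (ZMod 2) := (W.map mgen).prod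

theorem gw_mem (W : List (Fin 7)) : gw W ∈ Subgroup.closure (Set.range mgen) := by
  apply Subgroup.list_prod_mem
  intro x hx
  rw [List.mem_map] at hx
  obtain ⟨i, _, rfl⟩ := hx
  exact Subgroup.subset_closure ⟨i, rfl⟩

theorem enc_gw (W : List (Fin 7)) (v : Fin 5 → ZMod 2) :
    enc ((gw W : Matrix (Fin 5) (Fin 5) (ZMod 2)) *ᵥ v) = actN W (enc v) := by
  rw [gw, coe_prod, enc_word]

theorem fixv (W : List (Fin 7)) (v : Fin 5 → ZMod 2) (n : ℕ) (hv : enc v = n)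
    (h : actN W n = n) : (gw W : Matrix (Fin 5) (Fin 5) (ZMod 2)) *ᵥ v = v := by
  apply enc_inj
  rw [enc_gw, hv, h]

theorem fixmul {R S : Matrix.SpecialLinearGroup (Fin 5) (ZMod 2)} {v : Fin 5 → ZMod 2}
    (hR : (R : Matrix (Fin 5) (Fin 5) (ZMod 2)) *ᵥ v = v)
    (hS : (S : Matrix (Fin 5) (Fin 5) (ZMod 2)) *ᵥ v = v) :
    ((R * S : Matrix.SpecialLinearGroup (Fin 5) (ZMod 2)) : Matrix (Fin 5) (Fin 5) (ZMod 2)) *ᵥ v
      = v := by
  rw [Matrix.SpecialLinearGroup.coe_mul, ← Matrix.mulVec_mulVec, hS, hR]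

theorem step {A A' R R' : Matrix.SpecialLinearGroup (Fin 5) (ZMod 2)} {v : Fin 5 → ZMod 2}
    (hR : (R : Matrix (Fin 5) (Fin 5) (ZMod 2)) *ᵥ v = v)
    (hR' : (R' : Matrix (Fin 5) (Fin 5) (ZMod 2)) *ᵥ v = v) (h : A * R = A' * R') :
    (A : Matrix (Fin 5) (Fin 5) (ZMod 2)) *ᵥ v = (A' : Matrix (Fin 5) (Fin 5) (ZMod 2)) *ᵥ v := by
  have h2 := congrArg
    (fun g : Matrix.SpecialLinearGroup (Fin 5) (ZMod 2) =>
      (g : Matrix (Fin 5) (Fin 5) (ZMod 2)) *ᵥ v) h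
  simp only [Matrix.SpecialLinearGroup.coe_mul, ← Matrix.mulVec_mulVec] at h2
  rwa [hR, hR'] at h2

theorem actN_eq_of {W W' : List (Fin 7)} {v : Fin 5 → ZMod 2} {n : ℕ} (hv : enc v = n)
    (h : (gw W : Matrix (Fin 5) (Fin 5) (ZMod 2)) *ᵥ v
      = (gw W' : Matrix (Fin 5) (Fin 5) (ZMod 2)) *ᵥ v) : actN W n = actN W' n := by
  have h2 := congrArg enc h
  rwa [enc_gw, enc_gw, hv] at h2

/-- transversal words, level 0. -/
def W0 (a : Fin 16) : List (Fin 7) := HCT.lv0.getD a.val []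
/-- transversal words, level 1. -/
def W1 (a : Fin 14) : List (Fin 7) := HCT.lv1.getD a.val []
/-- transversal words, level 2. -/
def W2 (a : Fin 12) : List (Fin 7) := HCT.lv2.getD a.val []
/-- transversal words, level 3. -/
def W3 (a : Fin 8) : List (Fin 7) := HCT.lv3.getD a.val []

theorem eb0 : enc (HCT.baseV 0) = 2 := by decide
theorem eb1 : enc (HCT.baseV 1) = 6 := by decide
theorem eb2 : enc (HCT.baseV 2) = 10 := by decide
theorem eb3 : enc (HCT.baseV 3) = 18 := by decide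

set_option maxRecDepth 100000 in
theorem d0 : ∀ a a' : Fin 16, actN (W0 a) 2 = actN (W0 a') 2 → a = a' := by decide
set_option maxRecDepth 100000 in
theorem f1 : ∀ b : Fin 14, actN (W1 b) 2 = 2 := by decide
set_option maxRecDepth 100000 in
theorem d1 : ∀ b b' : Fin 14, actN (W1 b) 6 = actN (W1 b') 6 → b = b' := by decide
set_option maxRecDepth 100000 in
theorem f2 : ∀ c : Fin 12, actN (W2 c) 2 = 2 ∧ actN (W2 c) 6 = 6 := by decide
set_option maxRecDepth 100000 in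
theorem d2 : ∀ c c' : Fin 12, actN (W2 c) 10 = actN (W2 c') 10 → c = c' := by decide
set_option maxRecDepth 100000 in
theorem f3 : ∀ d : Fin 8, actN (W3 d) 2 = 2 ∧ actN (W3 d) 6 = 6 ∧ actN (W3 d) 10 = 10 := by
  decide
set_option maxRecDepth 100000 in
theorem d3 : ∀ d d' : Fin 8, actN (W3 d) 18 = actN (W3 d') 18 → d = d' := by decide

theorem prod_inj (a a' : Fin 16) (b b' : Fin 14) (c c' : Fin 12) (d d' : Fin 8)
    (h : gw (W0 a) * (gw (W1 b) * (gw (W2 c) * gw (W3 d))) =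
      gw (W0 a') * (gw (W1 b') * (gw (W2 c') * gw (W3 d')))) :
    a = a' ∧ b = b' ∧ c = c' ∧ d = d' := by
  have k0 := step
    (fixmul (fixv _ _ _ eb0 (f1 b)) (fixmul (fixv _ _ _ eb0 (f2 c).1) (fixv _ _ _ eb0 (f3 d).1)))
    (fixmul (fixv _ _ _ eb0 (f1 b'))
      (fixmul (fixv _ _ _ eb0 (f2 c').1) (fixv _ _ _ eb0 (f3 d').1))) h
  have ea : a = a' := d0 a a' (actN_eq_of eb0 k0)
  subst ea
  have h1 := mul_left_cancel h
  have k1 := step
    (fixmul (fixv _ _ _ eb1 (f2 c).2) (fixv _ _ _ eb1 (f3 d).2.1))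
    (fixmul (fixv _ _ _ eb1 (f2 c').2) (fixv _ _ _ eb1 (f3 d').2.1)) h1
  have ebb : b = b' := d1 b b' (actN_eq_of eb1 k1)
  subst ebb
  have h2 := mul_left_cancel h1
  have k2 := step (fixv _ _ _ eb2 (f3 d).2.2) (fixv _ _ _ eb2 (f3 d').2.2) h2
  have ec : c = c' := d2 c c' (actN_eq_of eb2 k2)
  subst ec
  have h3 := mul_left_cancel h2
  have k3 : (gw (W3 d) : Matrix (Fin 5) (Fin 5) (ZMod 2)) *ᵥ HCT.baseV 3
      = (gw (W3 d') : Matrix (Fin 5) (Fin 5) (ZMod 2)) *ᵥ HCT.baseV 3 := by rw [h3]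
  have ed : d = d' := d3 d d' (actN_eq_of eb3 k3)
  exact ⟨rfl, rfl, rfl, ed⟩

theorem card_closure_ge : 21504 ≤ Nat.card (Subgroup.closure (Set.range mgen)) := by
  let Φ : Fin 16 × Fin 14 × Fin 12 × Fin 8 → (Subgroup.closure (Set.range mgen)) :=
    fun t => ⟨gw (W0 t.1) * (gw (W1 t.2.1) * (gw (W2 t.2.2.1) * gw (W3 t.2.2.2))),
      mul_mem (gw_mem _) (mul_mem (gw_mem _) (mul_mem (gw_mem _) (gw_mem _)))⟩
  have hΦ : Function.Injective Φ := by
    rintro ⟨a, b, c, d⟩ ⟨a', b', c', d'⟩ h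
    have h' := congrArg Subtype.val h
    obtain ⟨h1, h2, h3, h4⟩ := prod_inj a a' b b' c c' d d' h'
    subst h1; subst h2; subst h3; subst h4
    rfl
  have hc := Nat.card_le_card_of_injective Φ hΦ
  have : Nat.card (Fin 16 × Fin 14 × Fin 12 × Fin 8) = 21504 := by
    simp
  omega

end Cfsg.Agent.Lib.Helper1.HeGens
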